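import Cfsg.Agent.Lib.OTI.Defs

/-! Package BAS: basic facts on TI families.  See `plans/OTI.md`. -/

set_option autoImplicit false
set_option linter.unusedSectionVars false

namespace CfsgLib.OTI

open Subgroup MulAction CfsgLib.Perm CfsgLib.HKS
open scoped commutatorElement

universe u

variable {G : Type u} [Group G] [Finite G] {X : Type u} [Finite X] [MulAction G X]
  {N : X → Subgroup G} {x y : X}

theorem two_blk (h : StabTI N) (hxy : x ≠ y) {g : G} {w w' : X} (hw : w ∈ blk N x y)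
    (hw' : w' ∈ blk N x y) (hne : w ≠ w') (h1 : g • w ∈ blk N x y) (h2 : g • w' ∈ blk N x y) :
    g ∈ St G (blk N x y) := by
  refine mem_St_of fun c hc => ?_
  rw [← h.blk_eq hxy hw hw' hne] at hc
  have := h.smul_mem_blk g hc
  rwa [h.blk_eq hxy h1 h2 fun e => hne (smul_left_cancel g e)] at this

theorem Kp_eq_Mw (h : StabTI N) (hxy : x ≠ y) {w w' : X} (hw : w ∈ blk N x y) (hw' : w' ∈ blk N x y)
    (hne : w ≠ w') : Kp N w w' = Mw N (blk N x y) w := by
  ext g
  rw [mem_Kp, mem_Mw]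
  refine and_congr_right fun hg => ⟨fun e c hc => ?_, fun e => e w' hw'⟩
  rw [← h.blk_eq hxy hw hw' hne] at hc
  exact hc g hg e

theorem card_Kp (h : StabTI N) (hxy : x ≠ y) {x' y' : X} (hxy' : x' ≠ y') :
    Nat.card (Kp N x y) = Nat.card (Kp N x' y') := by
  exact (h.card_stab_le hxy hxy').antisymm (h.card_stab_le hxy' hxy)

theorem normalizer_eq (h : StabTI N) (hxy : x ≠ y) : normalizer (N x : Set G) = stabilizer G x := by
  ext g
  refine ⟨fun hg => ?_, fun hg => mem_normalizer_iff.2 fun n => ⟨h.conj' hg, fun hn => ?_⟩⟩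
  · obtain ⟨n, hn, h1, -⟩ := h.exists_ne_one hxy
    by_contra hne
    have := h.ti hne (h.conj g hn) ((mem_normalizer_iff.1 hg n).1 hn)
    exact h1 (by simpa using this)
  · simpa [mul_assoc] using h.conj_inv hg hn

/-- no abelian normal subgroup -/
theorem no_rns (h : StabTI N) (A : Subgroup G) [A.Normal] (hA : A ≠ ⊥)
    (hc : ∀ a ∈ A, ∀ b ∈ A, a * b = b * a) : False := by
  obtain ⟨⟨a, ha⟩, h1⟩ := ne_bot_iff_exists_ne_one.1 hA
  obtain ⟨x, hx⟩ : ∃ x : X, a • x ≠ x := by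
    by_contra hn
    push Not at hn
    exact h1 (Subtype.ext (h.faith a hn))
  obtain ⟨k, hk, hk1, hky⟩ := h.exists_ne_one hx.symm
  have hN := ‹A.Normal›
  have hd : a⁻¹ * (k * a * k⁻¹) ∈ A := mul_mem (inv_mem ha) (hN.conj_mem a ha k)
  have hdx : (a⁻¹ * (k * a * k⁻¹)) • x = x := by
    rw [mul_smul, mul_smul, mul_smul, h.fix (inv_mem hk), hky, inv_smul_smul]
  have := h.faith (a⁻¹ * (k * a * k⁻¹)) fun z => by
    by_cases hz : x = z
    · exact hz ▸ hdx
    obtain ⟨g, e1, e2⟩ := h.two hx.symm hz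
    have e3 : (g * a * g⁻¹) • x = z := by
      rw [mul_smul, mul_smul, inv_smul_eq_iff.2 e1.symm, e2]
    rw [← e3, ← mul_smul, hc _ hd _ (hN.conj_mem a ha g), mul_smul, hdx]
  rw [inv_mul_eq_one, eq_mul_inv_iff_mul_eq] at this
  exact hx (h.fix_of_commute hk hk1 this)

theorem Mn.fpf (h : Mn N) (hxy : x ≠ y) {R : Subgroup G} (hR : R ≤ N x) (hI : Inv x R) (hne : R ≠ N x)
    {l : G} (hl : l ∈ N y) (hlx : l • x = x) (h1 : l ≠ 1) : R ⊓ centralizer {l} = ⊥ := by
  have _ := hlx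
  refine eq_bot_iff.2 fun r hr => ?_
  exact h.min x R hR hI hne r hr.1 y hxy.symm
    (h.fix_of_commute hl h1 (mem_centralizer_singleton_iff.1 hr.2))

theorem Mn.eq_one_of_blk (h : Mn N) (hxy : x ≠ y) {R : Subgroup G} (hR : R ≤ N x) (hI : Inv x R)
    (hne : R ≠ N x) {r : G} (hr : r ∈ R) (hb : r • y ∈ blk N x y) : r = 1 := by
  obtain ⟨l, hl, h1, hlx⟩ := h.exists_ne_one hxy.symm
  have hrx := h.fix (hR hr)
  have hS := two_blk h.toStabTI hxy (h.left_mem_blk x y) (right_mem_blk x y) hxy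
    (hrx.symm ▸ h.left_mem_blk x y) hb
  have h2 : r * (l * r⁻¹ * l⁻¹) ∈ R := mul_mem hr (hI l hlx _ (inv_mem hr))
  have h3 := h.min x R hR hI hne _ h2 y hxy.symm (by
    rw [mul_smul, mul_smul, mul_smul, h.fix (inv_mem hl),
      h.fix_blk' hxy hl hlx ((mem_St.1 (inv_mem hS) y).2 (right_mem_blk x y)), smul_inv_smul])
  refine h.min x R hR hI hne r hr y hxy.symm (h.fix_of_commute hl h1 ?_)
  calc r * l = r * (l * r⁻¹ * l⁻¹) * (l * r) := by group
    _ = l * r := by rw [h3, one_mul]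

/-- `C_R(K) = 1` -/
theorem Mn.eq_one_of_cent (h : Mn N) (hxy : x ≠ y) {R : Subgroup G} (hR : R ≤ N x) (hI : Inv x R)
    (hne : R ≠ N x) {r : G} (hr : r ∈ R) (hc : ∀ k ∈ N x, k • y = y → k * r = r * k) : r = 1 := by
  exact h.eq_one_of_blk hxy hR hI hne hr fun n hn e => by rw [← mul_smul, hc n hn e, mul_smul, e]

end CfsgLib.OTI
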