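import Cfsg.Agent.Lib.OTI.Bas
import Cfsg.Agent.Lib.Frob.FPF
import Cfsg.Agent.Lib.Signal.Basic

/-! Package C1A: the elementary abelian group `MM` and its hyperplanes.  See `plans/OTI.md`. -/

set_option autoImplicit false
set_option linter.unusedSectionVars false

namespace CfsgLib.OTI

open Subgroup MulAction CfsgLib.Perm CfsgLib.HKS
open scoped commutatorElement

universe u

variable {G : Type u} [Group G] [Finite G] {X : Type u} [Finite X] [MulAction G X]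
  {N Q : X → Subgroup G} {p : ℕ} {x y : X} {U : Subgroup G}

theorem c1a_gen {K : Subgroup G} (hp : p.Prime) (hK : Nat.card K = p) {m : G} (hm : m ∈ K) (h1 : m ≠ 1) :
    K = zpowers m := by
  refine (eq_of_le_of_card_ge (zpowers_le.2 hm) ?_).symm
  rw [Nat.card_zpowers, hK, ((Nat.dvd_prime hp).1 (hK ▸ K.orderOf_dvd_natCard hm)).resolve_left
    fun e => h1 (orderOf_eq_one_iff.1 e)]

omit [Finite G] in
theorem c1a_mem_sup {A B : Subgroup G} (h : ∀ a ∈ A, ∀ b ∈ B, a * b = b * a) {g : G} (hg : g ∈ A ⊔ B) :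
    ∃ a ∈ A, ∃ b ∈ B, g = a * b := by
  have h1 : B ≤ normalizer (A : Set G) := mem_normalizer_of_conj fun b hb a ha => by
    rwa [← h a ha b hb, mul_inv_cancel_right]
  have h2 : g ∈ ((A ⊔ B : Subgroup G) : Set G) := hg
  rw [coe_mul_of_right_le_normalizer_left A B h1] at h2
  obtain ⟨a, ha, b, hb, e⟩ := h2
  exact ⟨a, ha, b, hb, e.symm⟩

omit [Finite G] [Finite X] in
theorem c1a_other (h : C1 N Q p) (hxy : x ≠ y) (w : X) : ∃ w' ∈ blk N x y, w ≠ w' := by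
  by_cases e : w = x
  · exact ⟨y, right_mem_blk x y, e ▸ hxy⟩
  · exact ⟨x, h.left_mem_blk x y, e⟩

theorem C1.card_Mw (h : C1 N Q p) (hxy : x ≠ y) {w : X} (hw : w ∈ blk N x y) :
    Nat.card (Mw N (blk N x y) w) = p := by
  obtain ⟨w', hw', hne⟩ := c1a_other h hxy w
  rw [← Kp_eq_Mw h.toStabTI hxy hw hw' hne]
  exact h.card hne

theorem C1.exists_gen (h : C1 N Q p) (hxy : x ≠ y) {w : X} (hw : w ∈ blk N x y) :
    ∃ k : G, orderOf k = p ∧ Mw N (blk N x y) w = zpowers k := by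
  have h1 := h.card_Mw hxy hw
  obtain ⟨⟨k, hk⟩, h2⟩ := ne_bot_iff_exists_ne_one.1 ((one_lt_card_iff_ne_bot (Mw N (blk N x y) w)).1 (h1 ▸ h.prime.one_lt))
  have h3 := c1a_gen h.prime h1 hk fun e => h2 (Subtype.ext e)
  exact ⟨k, by rw [← Nat.card_zpowers, ← h3, h1], h3⟩

/-- a non-trivial element of `Mw` fixes exactly the block -/
theorem C1.mem_blk (h : C1 N Q p) (hxy : x ≠ y) {w : X} (hw : w ∈ blk N x y) {m : G}
    (hm : m ∈ Mw N (blk N x y) w) (h1 : m ≠ 1) {z : X} (hz : m • z = z) : z ∈ blk N x y := by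
  obtain ⟨w', hw', hne⟩ := c1a_other h hxy w
  rw [← h.blk_eq hxy hw hw' hne]
  intro n hn e
  have h2 : n ∈ Kp N w w' := ⟨hn, e⟩
  rw [Kp_eq_Mw h.toStabTI hxy hw hw' hne, c1a_gen h.prime (h.card_Mw hxy hw) hm h1] at h2
  exact (zpowers_le (H := stabilizer G z)).2 hz h2

theorem C1.fpf (h : C1 N Q p) (hxy : x ≠ y) {w v : X} (hw : w ∈ blk N x y) (hv : v ∈ blk N x y) {m : G}
    (hm : m ∈ Mw N (blk N x y) w) (h1 : m ≠ 1) : Q v ⊓ centralizer {m} = ⊥ := by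
  refine eq_bot_iff.2 fun a ha => ?_
  obtain ⟨v', hv', hne⟩ := c1a_other h hxy v
  refine h.qreg hne ha.1 ?_
  rw [h.blk_eq hxy hv hv' hne]
  refine h.mem_blk hxy hw hm h1 ?_
  rw [← mul_smul, ← mem_centralizer_singleton_iff.1 ha.2, mul_smul, (mem_Mw.1 hm).2 v' hv']

theorem C1.pi (h : C1 N Q p) (hxy : x ≠ y) (v : X) : Cfsg.IsPiSubgroup {p}ᶜ (Q v) := by
  obtain ⟨v', -, hne⟩ := c1a_other h hxy v
  have hv := h.left_mem_blk v v'
  have h1 := Frob.coprime_card_of_fpf (K := Q v) (H := Mw N (blk N v v') v)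
    (mem_normalizer_of_conj fun g hg a ha => by simpa [h.fix hg.1] using h.qconj g ha)
    fun m hm h1 => h.fpf hne hv hv hm h1
  rw [h.card_Mw hne hv] at h1
  rintro q - hq rfl
  exact h.prime.one_lt.ne' (Nat.Coprime.eq_one_of_dvd h1 hq)

theorem C1.c1a_comm (h : C1 N Q p) (hxy : x ≠ y) {m m' : G} (hm : m ∈ MM N (blk N x y))
    (hm' : m' ∈ MM N (blk N x y)) : m * m' = m' * m := by
  refine mem_centralizer_singleton_iff.1 (MM_le_iff.2 (fun w hw k hk => mem_centralizer_singleton_iff.2 ?_) hm)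
  refine (mem_centralizer_singleton_iff.1
    (MM_le_iff.2 (fun w' hw' k' hk' => mem_centralizer_singleton_iff.2 ?_) hm')).symm
  by_cases e : w' = w
  · subst e
    obtain ⟨c, -, hc⟩ := h.exists_gen hxy hw
    rw [hc] at hk hk'
    obtain ⟨i, rfl⟩ := hk
    obtain ⟨j, rfl⟩ := hk'
    exact (Commute.refl c).zpow_zpow j i
  · exact h.commute e hk'.1 ((mem_Mw.1 hk').2 w hw) hk.1 ((mem_Mw.1 hk).2 w' hw')

theorem C1.elem (h : C1 N Q p) (hxy : x ≠ y) : Cfsg.IsElementaryAbelian p (MM N (blk N x y)) := by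
  refine ⟨⟨⟨fun a b => Subtype.ext (h.c1a_comm hxy a.2 b.2)⟩⟩, fun a ha => ?_⟩
  let H : Subgroup G :=
    { carrier := {g | g ∈ MM N (blk N x y) ∧ g ^ p = 1}
      one_mem' := ⟨one_mem _, one_pow _⟩
      mul_mem' := fun ⟨h1, h2⟩ ⟨h1', h2'⟩ => ⟨mul_mem h1 h1', by
        rw [(show Commute _ _ from h.c1a_comm hxy h1 h1').mul_pow, h2, h2', one_mul]⟩
      inv_mem' := fun ⟨h1, h2⟩ => ⟨inv_mem h1, by rw [inv_pow, h2, inv_one]⟩ }
  refine ((MM_le_iff (H := H)).2 (fun w hw k hk => ⟨Mw_le hw hk, ?_⟩) ha).2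
  exact orderOf_dvd_iff_pow_eq_one.1 (h.card_Mw hxy hw ▸ Subgroup.orderOf_dvd_natCard _ hk)

theorem C1.MM_comm (h : C1 N Q p) (hxy : x ≠ y) {m m' : G} (hm : m ∈ MM N (blk N x y))
    (hm' : m' ∈ MM N (blk N x y)) : m * m' = m' * m := by
  exact h.c1a_comm hxy hm hm'

theorem C1.Mw_conj (h : C1 N Q p) {B : Set X} {g m : G} (hg : g ∈ St G B) {w : X} (hm : m ∈ Mw N B w) :
    g * m * g⁻¹ ∈ Mw N B (g • w) := by
  refine mem_Mw.2 ⟨h.conj g hm.1, fun c hc => ?_⟩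
  rw [mul_smul, mul_smul, (mem_Mw.1 hm).2 _ ((mem_St.1 (inv_mem hg) c).2 hc), smul_inv_smul]

theorem C1.MM_conj (h : C1 N Q p) {B : Set X} {g m : G} (hg : g ∈ St G B) (hm : m ∈ MM N B) :
    g * m * g⁻¹ ∈ MM N B := by
  exact (MM_le_iff (H := (MM N B).comap (MulAut.conj g).toMonoidHom)).2
    (fun w hw k hk => Mw_le ((mem_St.1 hg w).2 hw) (h.Mw_conj hg hk)) hm

theorem C1.fix_of_cent (h : C1 N Q p) (hxy : x ≠ y) {g : G}
    (hg : ∀ m ∈ MM N (blk N x y), g * m = m * g) {c : X} (hc : c ∈ blk N x y) : g • c = c := by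
  obtain ⟨k, h1, h2⟩ := h.exists_gen hxy hc
  have hk : k ∈ Mw N (blk N x y) c := h2 ▸ mem_zpowers k
  exact h.fix_of_commute hk.1 (fun e => h.prime.one_lt.ne' (by rw [← h1, e, orderOf_one])) (hg k (Mw_le hc hk))

/-- the element of `Q v` carrying a `U`-invariant block through `v` to another one centralises `U` -/
theorem C1.qtr_cent (h : C1 N Q p) {v z z' : X} (hv : v ∈ Fx X (U : Set G)) (hz : z ∈ Fx X (U : Set G))
    (hz' : z' ∈ Fx X (U : Set G)) (h1 : v ≠ z) (h2 : v ≠ z') :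
    ∃ a ∈ Q v ⊓ centralizer (U : Set G), a • z ∈ blk N v z' := by
  obtain ⟨a, ha, e⟩ := h.qtr h1 h2
  refine ⟨a, ⟨ha, fun u hu => ?_⟩, e⟩
  have h3 : u * a * u⁻¹ ∈ Q v := by simpa [hv u hu] using h.qconj u ha
  have h4 := h.smul_mem_blk u e
  rw [hv u hu, hz' u hu] at h4
  have av : a⁻¹ • v = v := h.fix (inv_mem (h.qle v ha))
  have h5 := h.smul_mem_blk a⁻¹ e
  have h6 := h.smul_mem_blk a⁻¹ h4
  rw [av] at h5 h6
  rw [inv_smul_smul] at h5
  rw [← h.blk_eq_right (fun e => h2 (smul_left_cancel a⁻¹ (av.trans e))) h1 h5] at h6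
  have h7 := h.qreg h1 (mul_mem (inv_mem ha) h3) (by
    rwa [mul_smul, mul_smul, mul_smul, inv_smul_eq_iff.2 (hz u hu).symm])
  rw [inv_mul_eq_one, eq_mul_inv_iff_mul_eq] at h7
  exact h7.symm

theorem Hy.fx {B : Set X} (hU : Hy N B p U) : B ⊆ Fx X (U : Set G) := by
  exact fun c hc u hu => MM_fix (hU.le hu) hc

theorem C1.hy_inf (h : C1 N Q p) (hxy : x ≠ y) (hU : Hy N (blk N x y) p U) {w : X} (hw : w ∈ blk N x y)
    {m : G} (hm : m ∈ Mw N (blk N x y) w) (hmU : m ∈ U) : m = 1 := by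
  by_contra h1
  obtain ⟨z, hz, e⟩ := hU.ex
  exact hz (h.mem_blk hxy hw hm h1 (e m hmU))

theorem C1.hy_mul (h : C1 N Q p) (hxy : x ≠ y) (hU : Hy N (blk N x y) p U) {w : X} (hw : w ∈ blk N x y)
    {m : G} (hm : m ∈ MM N (blk N x y)) : ∃ u ∈ U, ∃ κ ∈ Mw N (blk N x y) w, m = u * κ := by
  have h1 : U ⊔ Mw N (blk N x y) w ≤ MM N (blk N x y) := sup_le hU.le (Mw_le hw)
  have h2 := relIndex_mul_relIndex U _ _ le_sup_left h1
  rw [hU.idx] at h2
  rcases (Nat.dvd_prime h.prime).1 (Dvd.intro _ h2) with e | e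
  · obtain ⟨k, h3, h4⟩ := h.exists_gen hxy hw
    have hk : k ∈ Mw N (blk N x y) w := h4 ▸ mem_zpowers k
    rw [h.hy_inf hxy hU hw hk (relIndex_eq_one.1 e (mem_sup_right hk)), orderOf_one] at h3
    exact (h.prime.one_lt.ne h3).elim
  · rw [e, Nat.mul_eq_left h.prime.ne_zero, relIndex_eq_one] at h2
    exact c1a_mem_sup (fun a ha b hb => h.MM_comm hxy (hU.le ha) (Mw_le hw hb)) (h2 hm)

/-- the kernel of `MM` on `Fix U` is `U` -/
theorem C1.hy_mem (h : C1 N Q p) (hxy : x ≠ y) (hU : Hy N (blk N x y) p U) {m : G}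
    (hm : m ∈ MM N (blk N x y)) (hf : ∀ z ∈ Fx X (U : Set G), m • z = z) : m ∈ U := by
  have hx := h.left_mem_blk x y
  obtain ⟨u, hu, κ, hκ, rfl⟩ := h.hy_mul hxy hU hx hm
  obtain ⟨z, hz, e⟩ := hU.ex
  by_cases h1 : κ = 1
  · rwa [h1, mul_one]
  refine (hz (h.mem_blk hxy hx hκ h1 (smul_left_cancel u ?_))).elim
  rw [← mul_smul, hf z e, e u hu]

theorem C1.eq_one_of_hy (h : C1 N Q p) (hxy : x ≠ y) {c : G} (hc : c ∈ MM N (blk N x y))
    (hU : ∀ U, Hy N (blk N x y) p U → c ∈ U) : c = 1 := by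
  have hx := h.left_mem_blk x y
  have h1 : Q x ≤ centralizer {c} := by
    refine Signal.le_of_hyperplanes h.prime (h.elem hxy) (fun e => ?_) (h.pi hxy x)
      (mem_normalizer_of_conj fun g hg a ha => by simpa [MM_fix hg hx] using h.qconj g ha) fun U' h2 h3 a ha => ?_
    · have := card_le_of_le (Mw_le (N := N) hx)
      rw [e, h.card_Mw hxy hx, card_bot] at this
      exact h.prime.one_lt.not_ge this
    by_cases h4 : a = 1
    · exact h4 ▸ one_mem _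
    refine mem_centralizer_singleton_iff.2 (ha.2 c (hU U' ⟨h2, h3, a • y, fun e => h4 (h.qreg hxy ha.1 e),
      fun u hu => ?_⟩)).symm
    rw [← mul_smul, ha.2 u hu, mul_smul, MM_fix (h2 hu) (right_mem_blk x y)]
  refine h.faith c fun z => ?_
  by_cases e : x = z
  · exact MM_fix hc (e ▸ hx)
  obtain ⟨a, ha, h2⟩ := h.qtr e hxy
  refine smul_left_cancel a ?_
  rw [← mul_smul, mem_centralizer_singleton_iff.1 (h1 ha), mul_smul, MM_fix hc h2]

theorem C1.exists_hy (h : C1 N Q p) (hxy : x ≠ y) : ∃ U, Hy N (blk N x y) p U := by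
  by_contra hn
  have hx := h.left_mem_blk x y
  obtain ⟨k, h3, h4⟩ := h.exists_gen hxy hx
  rw [h.eq_one_of_hy (c := k) hxy (Mw_le hx (h4 ▸ mem_zpowers k)) fun U hU => (hn ⟨U, hU⟩).elim, orderOf_one] at h3
  exact h.prime.one_lt.ne h3

end CfsgLib.OTI
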