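import Cfsg.Agent.Lib.OTI.C1a

/-! Package C1B: no transvections.  See `plans/OTI.md`. -/

set_option autoImplicit false
set_option linter.unusedSectionVars false

namespace CfsgLib.OTI

open Subgroup MulAction CfsgLib.Perm CfsgLib.HKS
open scoped commutatorElement

universe u

variable {G : Type u} [Group G] [Finite G] {X : Type u} [Finite X] [MulAction G X]
  {N Q : X → Subgroup G} {p : ℕ} {x y : X} {U : Subgroup G}

theorem C1.c1b_gen (h : C1 N Q p) (hxy : x ≠ y) {w : X} (hw : w ∈ blk N x y) :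
    ∃ k ∈ Mw N (blk N x y) w, k ≠ 1 ∧ orderOf k = p := by
  obtain ⟨k, h1, h2⟩ := h.exists_gen hxy hw
  exact ⟨k, h2 ▸ mem_zpowers k, fun e => h.prime.one_lt.ne' (by rw [← h1, e, orderOf_one]), h1⟩

theorem C1.c1b_pow (h : C1 N Q p) (hxy : x ≠ y) {w : X} (hw : w ∈ blk N x y) {k m : G}
    (hk : k ∈ Mw N (blk N x y) w) (h1 : k ≠ 1) (hm : m ∈ Mw N (blk N x y) w) : ∃ i : ℕ, k ^ i = m := by
  rw [c1a_gen h.prime (h.card_Mw hxy hw) hk h1, ← mem_powers_iff_mem_zpowers] at hm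
  exact hm

theorem C1.c1b_ind (h : C1 N Q p) (hxy : x ≠ y) (hU : Hy N (blk N x y) p U) {k : G}
    (hk : k ∈ Mw N (blk N x y) x) (h1 : k ≠ 1) (P : G → Prop) (pU : ∀ u ∈ U, P u) (pk : P k)
    (pm : ∀ a ∈ MM N (blk N x y), ∀ b ∈ MM N (blk N x y), P a → P b → P (a * b)) :
    ∀ m ∈ MM N (blk N x y), P m := fun m hm => by
  have hx := h.left_mem_blk x y
  obtain ⟨u, hu, κ, hκ, rfl⟩ := h.hy_mul hxy hU hx hm
  obtain ⟨i, rfl⟩ := h.c1b_pow hxy hx hk h1 hκ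
  clear hm hκ
  induction i with
  | zero => simpa using pU u hu
  | succ i ih =>
    rw [pow_succ, ← mul_assoc]
    exact pm _ (mul_mem (hU.le hu) (pow_mem (Mw_le hx hk) i)) _ (Mw_le hx hk) ih pk

theorem C1.transv (h : C1 N Q p) (hxy : x ≠ y) (hU : Hy N (blk N x y) p U) {g : G}
    (hg : g ∈ CB U (blk N x y)) (ht : ∀ m ∈ MM N (blk N x y), g * m * g⁻¹ * m⁻¹ ∈ U) :
    ∀ m ∈ MM N (blk N x y), g * m = m * g := by
  have hx := h.left_mem_blk x y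
  obtain ⟨k, hk, k1, -⟩ := h.c1b_gen hxy hx
  obtain ⟨c, ec⟩ : ∃ c, c = g * k * g⁻¹ * k⁻¹ := ⟨_, rfl⟩
  have hc : c ∈ U := ec ▸ ht k (Mw_le hx hk)
  have e1 : ∀ i : ℕ, g ^ i * k * (g ^ i)⁻¹ = c ^ i * k := fun i => by
    induction i with
    | zero => simp
    | succ i ih =>
      calc _ = g * (g ^ i * k * (g ^ i)⁻¹) * g⁻¹ := by rw [pow_succ']; group
        _ = (g * c ^ i) * k * g⁻¹ := by rw [ih]; group
        _ = c ^ i * (g * k * g⁻¹ * k⁻¹) * k := by rw [← hg.1 _ (pow_mem hc i)]; group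
        _ = _ := by rw [← ec, pow_succ]
  have c1 : c = 1 := h.eq_one_of_hy hxy (hU.le hc) fun U₁ hU₁ => by
    obtain ⟨u, hu, κ, hκ, e⟩ := h.hy_mul hxy hU₁ hx (hU.le hc)
    by_cases h1 : κ = 1
    · rwa [e, h1, mul_one]
    obtain ⟨s, hs⟩ := h.c1b_pow hxy hx hκ h1 (inv_mem hk)
    have e2 : c ^ s * k = u ^ s := by
      rw [e, (show Commute u κ from h.MM_comm hxy (hU₁.le hu) (Mw_le hx hκ)).mul_pow, hs,
        inv_mul_cancel_right]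
    have g1 := pow_mem hg.2 s
    have e3 := h.hy_inf hxy hU₁ ((mem_St.1 g1 x).2 hx) (h.Mw_conj g1 hk) (by
      rw [e1, e2]; exact pow_mem hu s)
    rw [e1, mul_eq_one_iff_inv_eq] at e3
    exact absurd (h.hy_inf hxy hU hx hk (e3 ▸ inv_mem (pow_mem hc s))) k1
  refine h.c1b_ind hxy hU hk k1 (fun m => g * m = m * g) (fun u hu => (hg.1 u hu).symm) ?_
    fun a _ b _ ha hb => by rw [← mul_assoc, ha, mul_assoc, hb, mul_assoc]
  rw [c1, eq_comm, mul_inv_eq_one, mul_inv_eq_iff_eq_mul] at ec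
  exact ec

/-- the scalar induced on `MM / U` -/
theorem C1.scal (h : C1 N Q p) (hxy : x ≠ y) (hU : Hy N (blk N x y) p U) {g : G}
    (hg : g ∈ CB U (blk N x y)) : ∃ n : ℕ, ∀ m ∈ MM N (blk N x y), g * m * g⁻¹ * (m ^ n)⁻¹ ∈ U := by
  have hx := h.left_mem_blk x y
  obtain ⟨k, hk, k1, -⟩ := h.c1b_gen hxy hx
  obtain ⟨u, hu, κ, hκ, e⟩ := h.hy_mul hxy hU hx (h.MM_conj hg.2 (Mw_le hx hk))
  obtain ⟨n, rfl⟩ := h.c1b_pow hxy hx hk k1 hκ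
  refine ⟨n, h.c1b_ind hxy hU hk k1 (fun m => g * m * g⁻¹ * (m ^ n)⁻¹ ∈ U) (fun u hu => ?_) ?_
    fun a ha b hb h1 h2 => ?_⟩
  · rw [← hg.1 u hu, mul_inv_cancel_right]
    exact mul_mem hu (inv_mem (pow_mem hu n))
  · rwa [e, mul_inv_cancel_right]
  · have := mul_mem h1 h2
    rw [mul_assoc, ← h.MM_comm hxy (hU.le h2) (inv_mem (pow_mem ha n))] at this
    rw [(show Commute a b from h.MM_comm hxy ha hb).mul_pow]
    convert this using 1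
    group

theorem c1b_mul {M : Subgroup G} {g g' : G} {n n' : ℕ} (hg : ∀ u ∈ U, u * g = g * u)
    (h1 : ∀ m ∈ M, g * m * g⁻¹ * (m ^ n)⁻¹ ∈ U) (h2 : ∀ m ∈ M, g' * m * g'⁻¹ * (m ^ n')⁻¹ ∈ U) :
    ∀ m ∈ M, g * g' * m * (g * g')⁻¹ * (m ^ (n' * n))⁻¹ ∈ U := fun m hm => by
  have := mul_mem (h2 m hm) (h1 _ (pow_mem hm n'))
  rw [← mul_assoc, ← mul_assoc, ← mul_assoc, hg _ (h2 m hm), ← pow_mul] at this
  convert this using 1
  group

theorem C1.c1b_eq (h : C1 N Q p) (hxy : x ≠ y) (hU : Hy N (blk N x y) p U) {a b : G} {n : ℕ}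
    (ha : a ∈ CB U (blk N x y)) (hb : b ∈ CB U (blk N x y))
    (h1 : ∀ m ∈ MM N (blk N x y), a * m * a⁻¹ * (m ^ n)⁻¹ ∈ U)
    (h2 : ∀ m ∈ MM N (blk N x y), b * m * b⁻¹ * (m ^ n)⁻¹ ∈ U) :
    ∀ m ∈ MM N (blk N x y), a * b⁻¹ * m = m * (a * b⁻¹) := by
  refine h.transv hxy hU (mul_mem ha (inv_mem hb)) fun m hm => ?_
  have hm' := h.MM_conj (inv_mem hb.2) hm
  have := mul_mem (h1 _ hm') (inv_mem (h2 _ hm'))
  convert this using 1
  group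

theorem C1.comm_cent (h : C1 N Q p) (hxy : x ≠ y) (hU : Hy N (blk N x y) p U) {g g' : G}
    (hg : g ∈ CB U (blk N x y)) (hg' : g' ∈ CB U (blk N x y)) :
    ∀ m ∈ MM N (blk N x y), ⁅g, g'⁆ * m = m * ⁅g, g'⁆ := by
  obtain ⟨n, h1⟩ := h.scal hxy hU hg
  obtain ⟨n', h2⟩ := h.scal hxy hU hg'
  have := h.c1b_eq hxy hU (mul_mem hg hg') (mul_mem hg' hg) (c1b_mul hg.1 h1 h2)
    (mul_comm n n' ▸ c1b_mul hg'.1 h2 h1)
  rwa [show g * g' * (g' * g)⁻¹ = ⁅g, g'⁆ by rw [commutatorElement_def]; group] at this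

theorem C1.c1b_mod (h : C1 N Q p) (hxy : x ≠ y) {g : G} {n n' : ℕ} (e : (n : ZMod p) = n')
    (h1 : ∀ m ∈ MM N (blk N x y), g * m * g⁻¹ * (m ^ n)⁻¹ ∈ U) :
    ∀ m ∈ MM N (blk N x y), g * m * g⁻¹ * (m ^ n')⁻¹ ∈ U := fun m hm => by
  rw [← pow_eq_pow_of_modEq ((ZMod.natCast_eq_natCast_iff _ _ _).1 e) ((h.elem hxy).2 m hm)]
  exact h1 m hm

theorem C1.c1b_neg (h : C1 N Q p) (hxy : x ≠ y) (hU : Hy N (blk N x y) p U) {g : G} {n : ℕ}
    (hg : g ∈ CB U (blk N x y)) (h1 : g • x ≠ x)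
    (h2 : ∀ m ∈ MM N (blk N x y), g * g * m = m * (g * g))
    (h3 : ∀ m ∈ MM N (blk N x y), g * m * g⁻¹ * (m ^ n)⁻¹ ∈ U) : (n : ZMod p) = -1 := by
  have hx := h.left_mem_blk x y
  have := Fact.mk h.prime
  obtain ⟨k, hk, -, ko⟩ := h.c1b_gen hxy hx
  have e1 := c1b_mul hg.1 h3 h3 k (Mw_le hx hk)
  rw [h2 k (Mw_le hx hk), mul_inv_cancel_right] at e1
  have e2 := h.hy_inf hxy hU hx (mul_mem hk (inv_mem (pow_mem hk _))) e1
  rw [mul_inv_eq_one, ← pow_one k, ← pow_mul, pow_eq_pow_iff_modEq, ko, one_mul,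
    ← ZMod.natCast_eq_natCast_iff] at e2
  push_cast at e2
  refine (mul_self_eq_one_iff.1 e2.symm).resolve_left fun e => h1 (h.fix_of_cent hxy ?_ hx)
  have := h.c1b_eq hxy hU hg (one_mem _) (h.c1b_mod hxy (n' := 1) (by rw [e, Nat.cast_one]) h3)
    fun m _ => by simp
  simpa using this

/-- two elements of `CB` acting as involutions on `MM` act in the same way on the block -/
theorem C1.inv_eq (h : C1 N Q p) (hxy : x ≠ y) (hU : Hy N (blk N x y) p U) {g g' : G}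
    (hg : g ∈ CB U (blk N x y)) (hg' : g' ∈ CB U (blk N x y)) (h1 : g • x ≠ x) (h1' : g' • x ≠ x)
    (h2 : ∀ m ∈ MM N (blk N x y), g * g * m = m * (g * g))
    (h2' : ∀ m ∈ MM N (blk N x y), g' * g' * m = m * (g' * g')) : g • x = g' • x := by
  obtain ⟨n, k1⟩ := h.scal hxy hU hg
  obtain ⟨n', k2⟩ := h.scal hxy hU hg'
  have := h.fix_of_cent hxy (h.c1b_eq hxy hU hg hg' k1 (h.c1b_mod hxy
    ((h.c1b_neg hxy hU hg' h1' h2' k2).trans (h.c1b_neg hxy hU hg h1 h2 k1).symm) k2))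
    ((mem_St.1 hg'.2 x).2 (h.left_mem_blk x y))
  rwa [mul_smul, inv_smul_smul] at this

/-- rank two -/
theorem C1.MM_eq (h : C1 N Q p) (hxy : x ≠ y) (hU : Hy N (blk N x y) p U)
    (ht : ∀ w ∈ blk N x y, ∃ g ∈ CB U (blk N x y), g • x = w) :
    MM N (blk N x y) = Mw N (blk N x y) x ⊔ Mw N (blk N x y) y := by
  have hx := h.left_mem_blk x y
  have hy : y ∈ blk N x y := right_mem_blk x y
  refine le_antisymm (MM_le_iff.2 fun w hw => ?_) (sup_le (Mw_le hx) (Mw_le hy))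
  obtain ⟨g, hg, gx⟩ := ht y hy
  obtain ⟨g', hg', rfl⟩ := ht w hw
  obtain ⟨k, hk, k1, -⟩ := h.c1b_gen hxy hx
  have hkM := Mw_le hx hk
  obtain ⟨τ, eτ⟩ : ∃ τ, τ = g * k * g⁻¹ * k⁻¹ := ⟨_, rfl⟩
  have φM : ∀ m ∈ MM N (blk N x y), g * m * g⁻¹ * m⁻¹ ∈ MM N (blk N x y) := fun m hm =>
    mul_mem (h.MM_conj hg.2 hm) (inv_mem hm)
  have φ : ∀ m ∈ MM N (blk N x y), g * m * g⁻¹ * m⁻¹ ∈ zpowers τ :=
    h.c1b_ind hxy hU hk k1 (fun m => g * m * g⁻¹ * m⁻¹ ∈ zpowers τ)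
      (fun u hu => by rw [← hg.1 u hu]; simp) (eτ ▸ mem_zpowers τ) fun a ha b hb h1 h2 => by
        have := mul_mem h1 h2
        rw [mul_assoc, ← h.MM_comm hxy (φM b hb) (inv_mem ha)] at this
        convert this using 1
        group
  have τE : zpowers τ ≤ Mw N (blk N x y) x ⊔ Mw N (blk N x y) y := zpowers_le.2 (eτ ▸
    mul_mem (mem_sup_right (gx ▸ h.Mw_conj hg.2 hk)) (mem_sup_left (inv_mem hk)))
  obtain ⟨u, hu, κ, hκ, e⟩ := h.hy_mul hxy hU hx (eτ ▸ φM k hkM : τ ∈ _)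
  have κ1 : κ ≠ 1 := fun e1 => hxy (by
    rw [e1, mul_one] at e
    rw [← gx, h.fix_of_cent hxy (h.transv hxy hU hg fun m hm => zpowers_le.2 (e ▸ hu) (φ m hm)) hx])
  obtain ⟨j, hj⟩ := h.c1b_pow hxy hx hκ κ1 hk
  have e1 : τ ^ j = u ^ j * k := by
    rw [e, (show Commute u κ from h.MM_comm hxy (hU.le hu) (Mw_le hx hκ)).mul_pow, hj]
  have e2 : g' * τ * g'⁻¹ = g * (g' * k * g'⁻¹) * g⁻¹ * (g' * k * g'⁻¹)⁻¹ := by
    have := h.comm_cent hxy hU hg hg' _ (h.MM_conj (mul_mem hg'.2 hg.2) hkM)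
    rw [commutatorElement_def, ← mul_inv_eq_iff_eq_mul] at this
    calc _ = g' * g * k * (g' * g)⁻¹ * (g' * k * g'⁻¹)⁻¹ := by rw [eτ]; group
      _ = _ := by rw [← this]; group
  have e3 : g' * k * g'⁻¹ = k * (τ ^ j)⁻¹ * (g' * τ * g'⁻¹) ^ j := by
    rw [conj_pow, e1, ← mul_assoc g', ← hg'.1 _ (pow_mem hu j)]
    group
  rw [c1a_gen h.prime (h.card_Mw hxy hw) (h.Mw_conj hg'.2 hk) (by simpa using k1), zpowers_le, e3]
  exact mul_mem (mul_mem (mem_sup_left hk) (τE (inv_mem (pow_mem (mem_zpowers τ) j))))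
    (τE (pow_mem (e2 ▸ φ _ (h.MM_conj hg'.2 hkM)) j))

end CfsgLib.OTI
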