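import Cfsg.Agent.Lib.OTI.C1b

/-! Package C1C: `C(U)` is flag-transitive on `Fix U`.  See `plans/OTI.md`. -/

set_option autoImplicit false
set_option linter.unusedSectionVars false

namespace CfsgLib.OTI

open Subgroup MulAction CfsgLib.Perm CfsgLib.HKS
open scoped commutatorElement

universe u

variable {G : Type u} [Group G] [Finite G] {X : Type u} [Finite X] [MulAction G X]
  {N Q : X → Subgroup G} {p : ℕ} {x y : X} {U : Subgroup G}

theorem C1.c1c_two (h : C1 N Q p) (hxy : x ≠ y) (hU : Hy N (blk N x y) p U) {v z : X}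
    (hv : v ∈ Fx X (U : Set G)) (hz : z ∈ Fx X (U : Set G)) (hne : v ≠ z) :
    ∃ g ∈ centralizer (U : Set G), g • v ∈ blk N x y ∧ g • z ∈ blk N x y := by
  have k : ∀ {v z}, v ∈ blk N x y → z ∈ Fx X (U : Set G) → v ≠ z →
      ∃ g ∈ centralizer (U : Set G), g • v ∈ blk N x y ∧ g • z ∈ blk N x y := fun {v z} hv hz hne => by
    obtain ⟨v', hv', e⟩ := c1a_other h hxy v
    obtain ⟨a, ha, h1⟩ := h.qtr_cent (hU.fx hv) hz (hU.fx hv') hne e
    exact ⟨a, ha.2, (h.fix (h.qle v ha.1)).symm ▸ hv, h.blk_eq hxy hv hv' e ▸ h1⟩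
  by_cases e : x = v
  · exact k (e ▸ h.left_mem_blk x y) hz hne
  obtain ⟨a, ha, h1⟩ := h.qtr_cent (hU.fx (h.left_mem_blk x y)) hv (hU.fx (right_mem_blk x y)) e hxy
  obtain ⟨g, hg, h2⟩ := k h1 (Fx_pres ha.2 hz) fun e => hne (smul_left_cancel a e)
  exact ⟨g * a, mul_mem hg ha.2, by rwa [mul_smul, mul_smul]⟩

/-- all lines of `Fix U` meet an invariant set in the same number of points -/
theorem C1.c1c_line (h : C1 N Q p) (hxy : x ≠ y) (hU : Hy N (blk N x y) p U) {v z : X}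
    (hv : v ∈ Fx X (U : Set G)) (hz : z ∈ Fx X (U : Set G)) (hne : v ≠ z) {O : Set X}
    (hO : ∀ g ∈ centralizer (U : Set G), ∀ c ∈ O, g • c ∈ O) :
    (blk N v z ∩ O).ncard = (blk N x y ∩ O).ncard := by
  obtain ⟨g, hg, h1, h2⟩ := h.c1c_two hxy hU hv hz hne
  have e := h.blk_eq hxy h1 h2 fun e => hne (smul_left_cancel g e)
  refine Set.ncard_congr (fun c _ => g • c) (fun c hc => ⟨e ▸ h.smul_mem_blk g hc.1, hO g hg c hc.2⟩)
    (fun a b _ _ e => smul_left_cancel g e) fun c hc => ⟨g⁻¹ • c, ⟨?_, hO _ (inv_mem hg) c hc.2⟩,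
      smul_inv_smul g c⟩
  simpa using h.smul_mem_blk g⁻¹ (e ▸ hc.1 : c ∈ blk N (g • v) (g • z))

theorem C1.c1c_count (h : C1 N Q p) {v z : X}
    (hv : v ∈ Fx X (U : Set G)) (hz : z ∈ Fx X (U : Set G)) (hne : v ≠ z) {O : Set X}
    (hY : O ⊆ Fx X (U : Set G)) (hO : ∀ g ∈ centralizer (U : Set G), ∀ c ∈ O, g • c ∈ O) :
    (O \ {v}).ncard = Nat.card (Q v ⊓ centralizer (U : Set G) : Subgroup G) *
      ((blk N v z ∩ O) \ {v}).ncard := by
  have fx : ∀ a ∈ Q v ⊓ centralizer (U : Set G), a • v = v := fun a ha => h.fix (h.qle v ha.1)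
  have ne : ∀ a ∈ Q v ⊓ centralizer (U : Set G), ∀ c, c ≠ v → a • c ≠ v := fun a ha c hc e =>
    hc (smul_left_cancel a (e.trans (fx a ha).symm))
  rw [← Nat.card_coe_set_eq, ← Nat.card_coe_set_eq, ← Nat.card_prod]
  refine (Nat.card_eq_of_bijective
    (fun t : (Q v ⊓ centralizer (U : Set G) : Subgroup G) × ((blk N v z ∩ O) \ {v} : Set X) =>
      (⟨t.1.1 • t.2.1, hO _ t.1.2.2 _ t.2.2.1.2, ne _ t.1.2 _ t.2.2.2⟩ : (O \ {v} : Set X))) ⟨?_, ?_⟩).symm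
  · rintro ⟨⟨a, ha⟩, b, hb⟩ ⟨⟨a', ha'⟩, b', hb'⟩ e
    have e : a • b = a' • b' := congrArg Subtype.val e
    have e1 := h.qreg (Ne.symm hb.2) (mul_mem (inv_mem ha'.1) ha.1) (by
      rw [mul_smul, e, inv_smul_smul, h.blk_eq_right hne (Ne.symm hb.2) hb.1.1]
      exact hb'.1.1)
    obtain rfl := inv_mul_eq_one.1 e1
    obtain rfl := smul_left_cancel _ e
    rfl
  · rintro ⟨c, hc⟩
    obtain ⟨a, ha, e⟩ := h.qtr_cent hv (hY hc.1) hz (Ne.symm hc.2) hne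
    exact ⟨⟨⟨a⁻¹, inv_mem ha⟩, a • c, ⟨e, hO a ha.2 c hc.1⟩, ne a ha c hc.2⟩,
      Subtype.ext (inv_smul_smul a c)⟩

theorem C1.c1c_trans (h : C1 N Q p) (hxy : x ≠ y) (hU : Hy N (blk N x y) p U) {v : X}
    (hv : v ∈ Fx X (U : Set G)) : ∃ g ∈ centralizer (U : Set G), g • x = v := by
  by_contra hn
  have hx := h.left_mem_blk x y
  have hy : y ∈ blk N x y := right_mem_blk x y
  have hxv : v ≠ x := fun e => hn ⟨1, one_mem _, by rw [one_smul, e]⟩
  have pY : ∀ g ∈ centralizer (U : Set G), ∀ c ∈ Fx X (U : Set G), g • c ∈ Fx X (U : Set G) :=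
    fun g hg c hc => Fx_pres hg hc
  have pO : ∀ g ∈ centralizer (U : Set G), ∀ c ∈ {c | ∃ g ∈ centralizer (U : Set G), g • x = c},
      g • c ∈ {c | ∃ g ∈ centralizer (U : Set G), g • x = c} := by
    rintro g hg _ ⟨a, ha, rfl⟩
    exact ⟨g * a, mul_mem hg ha, mul_smul g a x⟩
  have sO : {c | ∃ g ∈ centralizer (U : Set G), g • x = c} ⊆ Fx X (U : Set G) := by
    rintro _ ⟨a, ha, rfl⟩
    exact Fx_pres ha (hU.fx hx)
  have xO : x ∈ {c | ∃ g ∈ centralizer (U : Set G), g • x = c} := ⟨1, one_mem _, one_smul _ _⟩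
  have vO : v ∉ {c | ∃ g ∈ centralizer (U : Set G), g • x = c} := hn
  generalize {c | ∃ g ∈ centralizer (U : Set G), g • x = c} = O at pO sO xO vO
  have a1 := h.c1c_count (hU.fx hx) (hU.fx hy) hxy subset_rfl pY
  have a2 := h.c1c_count hv (hU.fx hx) hxv subset_rfl pY
  have a3 := h.c1c_count (hU.fx hx) (hU.fx hy) hxy sO pO
  have a4 := h.c1c_count hv (hU.fx hx) hxv sO pO
  have b1 := h.c1c_line hxy hU hv (hU.fx hx) hxv pY
  have b2 := h.c1c_line hxy hU hv (hU.fx hx) hxv pO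
  rw [Set.diff_singleton_eq_self vO, Set.diff_singleton_eq_self fun e => vO e.2, b2] at a4
  have d1 := Set.ncard_diff_singleton_add_one (hU.fx hx)
  have d2 := Set.ncard_diff_singleton_add_one hv
  have d3 := Set.ncard_diff_singleton_add_one (s := blk N x y ∩ Fx X (U : Set G)) ⟨hx, hU.fx hx⟩
  have d4 := Set.ncard_diff_singleton_add_one (s := blk N v x ∩ Fx X (U : Set G))
    ⟨h.left_mem_blk v x, hv⟩
  have d5 := Set.ncard_diff_singleton_add_one xO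
  have d6 := Set.ncard_diff_singleton_add_one (s := blk N x y ∩ O) ⟨hx, xO⟩
  have p1 : 0 < ((blk N x y ∩ Fx X (U : Set G)) \ {x}).ncard :=
    (Set.ncard_pos).2 ⟨y, ⟨hy, hU.fx hy⟩, hxy.symm⟩
  have c1 : Nat.card (Q v ⊓ centralizer (U : Set G) : Subgroup G) =
      Nat.card (Q x ⊓ centralizer (U : Set G) : Subgroup G) := by
    refine Nat.eq_of_mul_eq_mul_right p1 ?_
    rw [← a1, show ((blk N x y ∩ Fx X (U : Set G)) \ {x}).ncard =
      ((blk N v x ∩ Fx X (U : Set G)) \ {v}).ncard by omega, ← a2]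
    omega
  rw [c1, ← d6, mul_add, ← a3, ← d5, mul_one, Nat.add_left_cancel_iff, eq_comm, card_eq_one] at a4
  obtain ⟨z, hz, e⟩ := hU.ex
  obtain ⟨a, ha, h1⟩ := h.qtr_cent (hU.fx hx) (z := z) e (hU.fx hy) (fun e => hz (e ▸ hx)) hxy
  rw [a4, mem_bot] at ha
  exact hz (by simpa [ha] using h1)

theorem C1.flag (h : C1 N Q p) (hxy : x ≠ y) (hU : Hy N (blk N x y) p U) {z z' : X}
    (hz : z ∈ Fx X (U : Set G)) (hz' : z' ∈ Fx X (U : Set G)) (hne : z ≠ z') :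
    ∃ g ∈ centralizer (U : Set G), g • z = x ∧ g • z' ∈ blk N x y := by
  obtain ⟨g, hg, rfl⟩ := h.c1c_trans hxy hU hz
  obtain ⟨a, ha, h1⟩ := h.qtr_cent (hU.fx (h.left_mem_blk x y)) (Fx_pres (inv_mem hg) hz')
    (hU.fx (right_mem_blk x y)) (fun e => hne (by rw [e, smul_inv_smul])) hxy
  exact ⟨a * g⁻¹, mul_mem ha.2 (inv_mem hg), by rw [mul_smul, inv_smul_smul, h.fix (h.qle x ha.1)],
    by rwa [mul_smul]⟩

theorem C1.cb_trans (h : C1 N Q p) (hxy : x ≠ y) (hU : Hy N (blk N x y) p U) {w : X}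
    (hw : w ∈ blk N x y) : ∃ g ∈ CB U (blk N x y), g • x = w := by
  have hx := h.left_mem_blk x y
  by_cases e : w = x
  · exact ⟨1, one_mem _, by rw [one_smul, e]⟩
  obtain ⟨g, hg, h1, h2⟩ := h.flag hxy hU (hU.fx hw) (hU.fx hx) e
  exact ⟨g⁻¹, inv_mem (show g ∈ CB U _ from ⟨hg, two_blk h.toStabTI hxy hw hx e (h1 ▸ hx) h2⟩),
    inv_smul_eq_iff.2 h1.symm⟩

/-- `CB` is regular on the block -/
theorem C1.cb_reg (h : C1 N Q p) (hxy : x ≠ y) (hU : Hy N (blk N x y) p U) {g : G}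
    (hg : g ∈ CB U (blk N x y)) {w : X} (hw : w ∈ blk N x y) (hf : g • w = w) :
    ∀ c ∈ blk N x y, g • c = c := fun c hc => by
  obtain ⟨a, ha, rfl⟩ := h.cb_trans hxy hU hw
  obtain ⟨b, hb, rfl⟩ := h.cb_trans hxy hU hc
  have := h.fix_of_cent hxy (h.comm_cent hxy hU hg (mul_mem hb (inv_mem ha))) hc
  rw [commutatorElement_def] at this
  simp only [mul_smul, mul_inv_rev, inv_inv, inv_smul_smul, inv_smul_eq_iff.2 hf.symm] at this
  exact this

end CfsgLib.OTI
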