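import Cfsg.Agent.Lib.OTI.C1c
import Cfsg.Agent.Lib.Recog.SpecSplit
import Cfsg.Agent.Lib.FT.OddOrder

/-! Package C1D: blocks of odd size.  See `plans/OTI.md`. -/

set_option autoImplicit false
set_option linter.unusedSectionVars false

namespace CfsgLib.OTI

open Subgroup MulAction CfsgLib.Perm CfsgLib.HKS
open scoped commutatorElement

universe u

variable {G : Type u} [Group G] [Finite G] {X : Type u} [Finite X] [MulAction G X]
  {N Q : X → Subgroup G} {p : ℕ} {x y : X} {U : Subgroup G}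

/-- an involution on a set of odd size has a fixed point -/
theorem c1d_fix {B : Set X} (ho : Odd B.ncard) {j : G} (hj : ∀ c ∈ B, j • c ∈ B)
    (h2 : ∀ c ∈ B, j • j • c = c) : ∃ c ∈ B, j • c = c := by
  classical
  have := Fintype.ofFinite B
  have hf : Function.Involutive (fun c : B => (⟨j • c, hj c c.2⟩ : B)) := fun c => Subtype.ext (h2 c c.2)
  have : Fact (Nat.Prime 2) := ⟨Nat.prime_two⟩
  obtain ⟨c, hc⟩ := Equiv.Perm.exists_fixed_point_of_prime (p := 2) (n := 1) (σ := hf.toPerm)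
    (by rw [← Nat.card_eq_fintype_card, Nat.card_coe_set_eq, ← even_iff_two_dvd, Nat.not_even_iff_odd]
        exact ho)
    (Equiv.ext fun c => by rw [pow_one, pow_two]; exact hf c)
  exact ⟨c, c.2, congrArg Subtype.val hc⟩

/-- the kernel of `C(U)` on `Fix U` -/
def c1d_ker (X : Type u) [MulAction G X] (U : Subgroup G) : Subgroup (centralizer (U : Set G)) where
  carrier := {g | ∀ z ∈ Fx X (U : Set G), (g : G) • z = z}
  one_mem' := fun z _ => one_smul G z
  mul_mem' := fun {a b} ha hb z hz => by rw [coe_mul, mul_smul, hb z hz, ha z hz]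
  inv_mem' := fun {a} ha z hz => by rw [coe_inv, inv_smul_eq_iff, ha z hz]

instance c1d_normal : (c1d_ker X U).Normal := ⟨fun a ha g z hz => by
  rw [coe_mul, coe_mul, mul_smul, mul_smul, ha _ (Fx_pres g⁻¹.2 hz), coe_inv, smul_inv_smul]⟩

theorem C1.c1d_odd (h : C1 N Q p) (hxy : x ≠ y) (ho : Odd (blk N x y).ncard)
    (hU : Hy N (blk N x y) p U) : Odd (Nat.card (centralizer (U : Set G) ⧸ c1d_ker X U)) := by
  rw [← Nat.not_even_iff_odd, even_iff_two_dvd]
  intro he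
  have : Fact (Nat.Prime 2) := ⟨Nat.prime_two⟩
  obtain ⟨jb, hjb⟩ := exists_prime_orderOf_dvd_card' 2 he
  obtain ⟨j, rfl⟩ := QuotientGroup.mk'_surjective _ jb
  have j1 : j ∉ c1d_ker X U := fun e => by
    rw [QuotientGroup.mk'_apply, (QuotientGroup.eq_one_iff j).2 e, orderOf_one] at hjb
    omega
  have j2 : j * j ∈ c1d_ker X U := by
    rw [← QuotientGroup.eq_one_iff, ← QuotientGroup.mk'_apply, map_mul, ← pow_two, ← hjb,
      pow_orderOf_eq_one]
  obtain ⟨z, hz, hne⟩ : ∃ z ∈ Fx X (U : Set G), (j : G) • z ≠ z := by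
    by_contra hc
    push Not at hc
    exact j1 hc
  obtain ⟨g, hg, e1, e2⟩ := h.flag hxy hU hz (Fx_pres j.2 hz) hne.symm
  have hx := h.left_mem_blk x y
  have a1 : (g * j * g⁻¹) • x = g • (j : G) • z := by rw [← e1, conj_smul_smul]
  have jj : ∀ c ∈ Fx X (U : Set G), (g * j * g⁻¹) • (g * j * g⁻¹) • c = c := fun c hc => by
    have := j2 _ (Fx_pres (inv_mem hg) hc)
    rw [coe_mul, mul_smul] at this
    simp only [mul_smul, inv_smul_smul, this, smul_inv_smul]
  have hw : x ≠ g • (j : G) • z := fun e => hne (smul_left_cancel g (e1.trans e)).symm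
  have hS : g * j * g⁻¹ ∈ St G (blk N x y) :=
    two_blk h.toStabTI hxy hx e2 hw (a1 ▸ e2) (by rw [← a1, jj x (hU.fx hx)]; exact hx)
  obtain ⟨c, hc, e⟩ := c1d_fix ho (fun c hc => (mem_St.1 hS c).2 hc) fun c hc => jj c (hU.fx hc)
  have hC : g * j * g⁻¹ ∈ centralizer (U : Set G) := mul_mem (mul_mem hg j.2) (inv_mem hg)
  exact hw ((h.cb_reg hxy hU ⟨hC, hS⟩ hc e x hx).symm.trans a1)

theorem C1.odd_blk (h : C1 N Q p) (hxy : x ≠ y) (ho : Odd (blk N x y).ncard) : False := by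
  obtain ⟨U, hU⟩ := h.exists_hy hxy
  have hx := h.left_mem_blk x y
  have hy := right_mem_blk (N := N) x y
  have hs := FT.odd_order_solvable (h.c1d_odd hxy ho hU)
  obtain ⟨A, hA, hA0, -, hc⟩ := Recog.exists_abelian_normal_of_solvable
    (⊤ : Subgroup (centralizer (U : Set G) ⧸ c1d_ker X U)) (fun e => by
      obtain ⟨g, hg, e1⟩ := h.cb_trans hxy hU hy
      have : (⟨g, hg.1⟩ : centralizer (U : Set G)) ∈ c1d_ker X U :=
        (QuotientGroup.eq_one_iff _).1 (mem_bot.1 (e ▸ mem_top _))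
      exact hxy ((this x (hU.fx hx)).symm.trans e1)) inferInstance
  set V := A.comap (QuotientGroup.mk' (c1d_ker X U)) with hV
  have Vn : V.Normal := hA.comap _
  have Vc : ∀ a ∈ V, ∀ b ∈ V, ∀ z ∈ Fx X (U : Set G), (a : G) • (b : G) • z = (b : G) • (a : G) • z := by
    intro a ha b hb z hz
    have e : (b * a)⁻¹ * (a * b) ∈ c1d_ker X U := by
      rw [← QuotientGroup.eq, QuotientGroup.mk_mul, QuotientGroup.mk_mul]
      exact hc _ hb _ ha
    have := e z hz
    rwa [coe_mul, coe_inv, mul_smul, inv_smul_eq_iff, coe_mul, coe_mul, mul_smul, mul_smul] at this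
  obtain ⟨v, hv, hw, hne⟩ : ∃ v ∈ V, (v : G) • x ∈ blk N x y ∧ x ≠ (v : G) • x := by
    obtain ⟨⟨a, ha⟩, a1⟩ := ne_bot_iff_exists_ne_one.1 hA0
    obtain ⟨v, rfl⟩ := QuotientGroup.mk'_surjective _ a
    obtain ⟨z, hz, hne⟩ : ∃ z ∈ Fx X (U : Set G), (v : G) • z ≠ z := by
      by_contra hn
      push Not at hn
      exact a1 (Subtype.ext ((QuotientGroup.eq_one_iff v).2 hn))
    obtain ⟨g, hg, e1, e2⟩ := h.flag hxy hU hz (Fx_pres v.2 hz) hne.symm
    have a1 : (g * v * g⁻¹) • x = g • (v : G) • z := by rw [← e1, conj_smul_smul]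
    refine ⟨⟨g, hg⟩ * v * ⟨g, hg⟩⁻¹, Vn.conj_mem v ha _, ?_, ?_⟩
    · exact a1 ▸ e2
    · exact fun e => hne (smul_left_cancel g (e1.trans (e.trans a1))).symm
  have fB : ∀ d ∈ V, (d : G) • x = x → ∀ c ∈ blk N x y, (d : G) • c = c := by
    intro d hd e
    have e1 : (d : G) • (v : G) • x = (v : G) • x := by rw [Vc d hd v hv x (hU.fx hx), e]
    exact h.cb_reg hxy hU ⟨d.2, two_blk h.toStabTI hxy hx hw hne (e.symm ▸ hx) (e1.symm ▸ hw)⟩ hx e
  have fY : ∀ d ∈ V, (d : G) • x = x → ∀ z ∈ Fx X (U : Set G), (d : G) • z = z := by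
    intro d hd e z hz
    by_cases hzx : x = z
    · exact hzx ▸ e
    obtain ⟨a, ha, e1⟩ := h.qtr_cent (hU.fx hx) hz (hU.fx hy) hzx hxy
    have ax := h.fix (h.qle x ha.1)
    have := fB _ (Vn.conj_mem d hd ⟨a, ha.2⟩) (by
      show (a * d * a⁻¹) • x = x
      rw [mul_smul, mul_smul, inv_smul_eq_iff.2 ax.symm, e, ax]) _ e1
    exact smul_left_cancel a ((conj_smul_smul a d z).symm.trans this)
  obtain ⟨k, hk, k1, -⟩ := h.c1b_gen hxy hx
  have kM := Mw_le hx hk
  have kC : k ∈ centralizer (U : Set G) := fun u hu => h.MM_comm hxy (hU.le hu) kM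
  have kB := (mem_Mw.1 hk).2
  have kv : ∀ z ∈ Fx X (U : Set G), k • (v : G) • z = (v : G) • k • z := by
    intro z hz
    have := fY _ (mul_mem (inv_mem hv) (Vn.conj_mem v hv ⟨k, kC⟩)) (by
      show ((v : G)⁻¹ * (k * v * k⁻¹)) • x = x
      rw [mul_smul, mul_smul, mul_smul, inv_smul_eq_iff.2 (kB x hx).symm, kB _ hw, inv_smul_smul])
      _ (Fx_pres kC hz)
    change ((v : G)⁻¹ * (k * v * k⁻¹)) • k • z = k • z at this
    rwa [mul_smul, conj_smul_smul, inv_smul_eq_iff] at this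
  have vS : (v : G) ∈ St G (blk N x y) := mem_St_of fun c hc =>
    h.mem_blk hxy hx hk k1 (by rw [kv c (hU.fx hc), kB c hc])
  have vk : (v : G) * k * (v : G)⁻¹ * k⁻¹ ∈ U := by
    refine h.hy_mem hxy hU (mul_mem (h.MM_conj vS kM) (inv_mem kM)) fun z hz => ?_
    rw [mul_smul, mul_smul, mul_smul, ← kv _ (Fx_pres (inv_mem v.2) (Fx_pres (inv_mem kC) hz)),
      smul_inv_smul, smul_inv_smul]
  have ht := h.c1b_ind hxy hU hk k1 (fun m => (v : G) * m * (v : G)⁻¹ * m⁻¹ ∈ U)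
    (fun u hu => by
      rw [← mem_centralizer_iff.1 v.2 u hu]
      simp) vk
    (fun a ha b hb pa pb => by
      have := h.MM_comm hxy ha (hU.le pb)
      rw [show (v : G) * (a * b) * (v : G)⁻¹ * (a * b)⁻¹ =
        (v : G) * a * (v : G)⁻¹ * a⁻¹ * (a * ((v : G) * b * (v : G)⁻¹ * b⁻¹) * a⁻¹) by group, this,
        mul_inv_cancel_right]
      exact mul_mem pa pb)
  exact hne (h.fix_of_cent hxy (h.transv hxy hU ⟨v.2, vS⟩ ht) hx).symm

end CfsgLib.OTI
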