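import Cfsg.Agent.Lib.OTI.C1c

/-! Package C1E: blocks of even size at least four.  See `plans/OTI.md`. -/

set_option autoImplicit false

namespace CfsgLib.OTI

open Subgroup MulAction CfsgLib.Perm CfsgLib.HKS
open scoped commutatorElement

universe u

variable {G : Type u} [Group G] [Finite G] {X : Type u} [Finite X] [MulAction G X]
  {N Q : X → Subgroup G} {p : ℕ} {x y : X} {U : Subgroup G}

theorem c1e_cent (h : C1 N Q p) (hxy : x ≠ y) (hU : Hy N (blk N x y) p U) {d κ l : G}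
    (hκ : κ ∈ Mw N (blk N x y) x) (hl : l ∈ Mw N (blk N x y) y) (κ1 : κ ≠ 1) (l1 : l ≠ 1) (h1 : d * κ = κ * d)
    (h2 : d * l = l * d) : ∀ m ∈ MM N (blk N x y), d * m = m * d := by
  intro m hm
  rw [h.MM_eq hxy hU fun w hw => h.cb_trans hxy hU hw,
    c1a_gen h.prime (h.card_Mw hxy (h.left_mem_blk x y)) hκ κ1,
    c1a_gen h.prime (h.card_Mw hxy (right_mem_blk x y)) hl l1] at hm
  exact (mem_centralizer_singleton_iff.1 ((sup_le (zpowers_le.2 (mem_centralizer_singleton_iff.2 h1.symm))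
    (zpowers_le.2 (mem_centralizer_singleton_iff.2 h2.symm)) : _ ≤ centralizer {d}) hm)).symm

theorem c1e_comm (h : C1 N Q p) (hxy : x ≠ y) {s s' : G} (hs : s ∈ St G (blk N x y)) (hs' : s' ∈ St G (blk N x y))
    (sx : s • x = x) (sx' : s' • x = x) {c : X} (hc : c ∈ blk N x y) : (s * s') • c = (s' * s) • c := by
  have hx := h.left_mem_blk x y
  have hy := right_mem_blk (N := N) x y
  obtain ⟨U, hU⟩ := h.exists_hy hxy
  obtain ⟨k, ko, hk⟩ := h.exists_gen hxy hx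
  obtain ⟨l, lo, hl⟩ := h.exists_gen hxy hy
  have k1 : k ≠ 1 := fun e => h.prime.one_lt.ne' (by rw [← ko, e, orderOf_one])
  have l1 : l ≠ 1 := fun e => h.prime.one_lt.ne' (by rw [← lo, e, orderOf_one])
  have km : k ∈ Mw N (blk N x y) x := hk ▸ mem_zpowers k
  have lm : l ∈ Mw N (blk N x y) y := hl ▸ mem_zpowers l
  have cK : ∀ g ∈ St G (blk N x y), g • x = x → ∀ m ∈ Mw N (blk N x y) x, g * m * g⁻¹ ∈ Mw N (blk N x y) x :=
    fun g hg gx m hm => by simpa only [gx] using h.Mw_conj hg hm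
  have cm : ∀ a ∈ Mw N (blk N x y) x, ∀ b ∈ Mw N (blk N x y) y, a * b = b * a :=
    fun a ha b hb => h.MM_comm hxy (Mw_le hx ha) (Mw_le hy hb)
  have aK : ∀ g ∈ St G (blk N x y), g • x = x → ∃ n : ℤ, g * k * g⁻¹ = k ^ n := fun g hg gx => by
    obtain ⟨n, hn⟩ := mem_zpowers_iff.1 (hk ▸ cK g hg gx k km)
    exact ⟨n, hn.symm⟩
  have aL : ∀ g ∈ St G (blk N x y), ∃ n : ℤ, ∃ κ ∈ Mw N (blk N x y) x, g * l * g⁻¹ = κ * l ^ n := fun g hg => by
    have := h.MM_conj hg (Mw_le hy lm)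
    rw [h.MM_eq hxy hU fun w hw => h.cb_trans hxy hU hw] at this
    obtain ⟨a, ha, b, hb, e⟩ := c1a_mem_sup cm this
    obtain ⟨n, rfl⟩ := mem_zpowers_iff.1 (hl ▸ hb)
    exact ⟨n, a, ha, e⟩
  have cj : ∀ a b v : G, a * b * v * (a * b)⁻¹ = a * (b * v * b⁻¹) * a⁻¹ := fun a b v => by group
  have cj2 : ∀ a b v : G, a * (b * v) * a⁻¹ = a * b * a⁻¹ * (a * v * a⁻¹) := fun a b v => by group
  obtain ⟨n, hn⟩ := aK s hs sx
  obtain ⟨n', hn'⟩ := aK s' hs' sx'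
  obtain ⟨m, κ, hκ, hm⟩ := aL s hs
  obtain ⟨m', κ', hκ', hm'⟩ := aL s' hs'
  have e1 : s * s' * k * (s * s')⁻¹ = s' * s * k * (s' * s)⁻¹ := by
    rw [cj, cj, hn, hn', ← conj_zpow, ← conj_zpow, hn, hn', ← zpow_mul, ← zpow_mul, mul_comm]
  have e2 : ∀ {s s' κ κ' : G} {m m' : ℤ}, κ ∈ Mw N (blk N x y) x → s * l * s⁻¹ = κ * l ^ m →
      s' * l * s'⁻¹ = κ' * l ^ m' → s * s' * l * (s * s')⁻¹ = s * κ' * s⁻¹ * κ ^ m' * l ^ (m * m') := by
    intro s s' κ κ' m m' hκ a b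
    rw [cj, b, cj2, ← conj_zpow, a, (show Commute κ (l ^ m) from cm κ hκ _ (zpow_mem lm m)).mul_zpow, zpow_mul,
      ← mul_assoc]
  obtain ⟨d, hd⟩ : ∃ d, d = (s' * s)⁻¹ * (s * s') := ⟨_, rfl⟩
  have bS := inv_mem (mul_mem hs' hs)
  have bx : (s' * s)⁻¹ • x = x := by rw [inv_smul_eq_iff, mul_smul, sx, sx']
  have dS : d ∈ St G (blk N x y) := hd ▸ mul_mem bS (mul_mem hs hs')
  have dk : d * k = k * d := by rw [← mul_inv_eq_iff_eq_mul, hd, cj, e1]; group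
  obtain ⟨κ₀, hκ₀, dl⟩ : ∃ κ₀ ∈ Mw N (blk N x y) x, d * l * d⁻¹ = κ₀ * l := by
    refine ⟨_, cK _ bS bx _ (mul_mem (mul_mem (cK s hs sx _ hκ') (zpow_mem hκ m'))
      (inv_mem (mul_mem (cK s' hs' sx' _ hκ) (zpow_mem hκ' m)))), ?_⟩
    have e3 := e2 hκ' hm' hm
    rw [hd, cj, e2 hκ hm hm', mul_comm m, ← inv_mul_cancel_left (s' * κ * s'⁻¹ * κ' ^ m) (l ^ _), ← e3]
    group
  have dl' : d * l = l * d := by
    by_contra hne
    have κ1 : κ₀ ≠ 1 := fun e => hne (by rwa [e, one_mul, mul_inv_eq_iff_eq_mul] at dl)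
    obtain ⟨u, hu, κ₁, hκ₁, e⟩ := h.hy_mul hxy hU hx (Mw_le hy lm)
    have h1 := inv_mem hκ₁
    rw [c1a_gen h.prime (h.card_Mw hxy hx) hκ₀ κ1, ← mem_powers_iff_mem_zpowers] at h1
    obtain ⟨i, hi⟩ := h1
    have dκ : Commute d κ₀ := by
      obtain ⟨j, rfl⟩ := mem_zpowers_iff.1 (hk ▸ hκ₀)
      exact (show Commute d k from dk).zpow_right j
    have key : ∀ j : ℕ, d ^ j * l * (d ^ j)⁻¹ = κ₀ ^ j * l := fun j => by
      induction j with
      | zero => simp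
      | succ j ih => rw [pow_succ', cj, ih, cj2, dl, (dκ.pow_right j).eq, mul_inv_cancel_right, pow_succ, mul_assoc]
    have h2 := h.Mw_conj (pow_mem dS i) lm
    have h3 : κ₀ ^ i * l = u := by
      have hi' : κ₀ ^ i = κ₁⁻¹ := hi
      rw [hi', cm _ (inv_mem hκ₁) l lm, e, mul_inv_cancel_right]
    rw [key, h3] at h2
    rw [h.hy_inf hxy hU ((mem_St.1 (pow_mem dS i) y).2 hy) h2 hu, one_mul] at e
    exact l1 (h.ti hxy (e ▸ hκ₁.1) lm.1)
  have := h.fix_of_cent hxy (c1e_cent h hxy hU km lm k1 l1 dk dl') hc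
  rwa [hd, mul_smul, inv_smul_eq_iff] at this

/-- the stabiliser of the block is sharply doubly transitive on it -/
theorem C1.sharp (h : C1 N Q p) (hxy : x ≠ y) {g : G} {w w' : X} (hw : w ∈ blk N x y)
    (hw' : w' ∈ blk N x y) (hne : w ≠ w') (h1 : g • w = w) (h2 : g • w' = w') :
    ∀ c ∈ blk N x y, g • c = c := by
  intro c hc
  rw [← h.blk_eq hxy hw hw' hne] at hc
  by_cases e : w = c
  · exact e ▸ h1
  have a := h.left_mem_blk w w'
  have b := right_mem_blk (N := N) w w'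
  obtain ⟨s, s1, s2⟩ := h.two hne e
  have := c1e_comm h hne (two_blk h.toStabTI hne a b hne (h1.symm ▸ a) (h2.symm ▸ b))
    (two_blk h.toStabTI hne a b hne (s1.symm ▸ a) (s2.symm ▸ hc)) h1 s1 b
  rwa [mul_smul, mul_smul, h2, s2] at this

theorem c1e_agree (h : C1 N Q p) (hxy : x ≠ y) {s g : G} (hs : s ∈ St G (blk N x y)) (hg : g ∈ St G (blk N x y))
    (s1 : ∀ c ∈ blk N x y, s • c ≠ c) (g1 : ∀ c ∈ blk N x y, g • c ≠ c) (e : s • x = g • x) :
    ∀ c ∈ blk N x y, s • c = g • c := by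
  have hx := h.left_mem_blk x y
  have hy := right_mem_blk (N := N) x y
  have sh : ∀ {a b : G}, a • x = b • x → a • y = b • y → ∀ c ∈ blk N x y, a • c = b • c := fun {a b} h1 h2 c hc => by
    have := h.sharp hxy (g := b⁻¹ * a) hx hy hxy (by rw [mul_smul, h1, inv_smul_smul])
      (by rw [mul_smul, h2, inv_smul_smul]) c hc
    rwa [mul_smul, inv_smul_eq_iff] at this
  refine sh e (by_contra fun hne => ?_)
  have hw := (mem_St.1 hs x).2 hx
  have key := rel_ncard_le (s := blk N x y \ {x, s • x}) (t := blk N x y \ {s • x, s • y, g • y})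
    (fun v c => ∃ t : G, t • v = v ∧ t • x = s • x ∧ t • y = c) (by
      rintro v ⟨hv, h1⟩
      simp only [Set.mem_insert_iff, Set.mem_singleton_iff, not_or] at h1
      obtain ⟨t, t1, t2⟩ := h.two h1.1 h1.2
      refine ⟨_, ⟨(mem_St.1 (two_blk h.toStabTI hxy hv hx h1.1 (t1.symm ▸ hv) (t2.symm ▸ hw)) y).2 hy, ?_⟩,
        t, t1, t2, rfl⟩
      rintro (a | a | a)
      · exact hxy (smul_left_cancel t (t2.trans a.symm))
      · exact s1 v hv ((sh t2 a v hv).symm.trans t1)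
      · exact g1 v hv ((sh (t2.trans e) a v hv).symm.trans t1)) (by
      rintro v ⟨hv, -⟩ v' ⟨hv', -⟩ c ⟨t, t1, t2, t3⟩ ⟨t', t1', t2', t3'⟩
      by_contra hvv
      have := h.sharp hxy hv hv' hvv t1 ((sh (t2.trans t2'.symm) (t3.trans t3'.symm) v' hv').trans t1') x hx
      exact s1 x hx (t2.symm.trans this)) (Set.toFinite _)
  have a1 : ({x, s • x} : Set X) ⊆ blk N x y := by rintro _ (rfl | rfl); exacts [hx, hw]
  have a2 : ({s • x, s • y, g • y} : Set X) ⊆ blk N x y := by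
    rintro _ (rfl | rfl | rfl); exacts [hw, (mem_St.1 hs y).2 hy, (mem_St.1 hg y).2 hy]
  have a3 : ({s • x, s • y, g • y} : Set X).ncard = 3 := Set.ncard_eq_three.2 ⟨_, _, _,
    fun a => hxy (smul_left_cancel s a), fun a => hxy (smul_left_cancel g (e.symm.trans a)), hne, rfl⟩
  have a4 := Set.ncard_le_ncard a2 (Set.toFinite _)
  rw [Set.ncard_diff a1, Set.ncard_diff a2, a3, Set.ncard_pair (s1 x hx).symm] at key
  omega

omit [Finite G] in
theorem c1e_par {B : Set X} (he : Even B.ncard) {s : G} (hs : ∀ c ∈ B, s • c ∈ B) (h2 : ∀ c ∈ B, s • s • c = c)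
    {v : X} (hv : v ∈ B) (e : s • v = v) : ∃ v' ∈ B, v ≠ v' ∧ s • v' = v' := by
  classical
  haveI : Fact (Nat.Prime 2) := ⟨Nat.prime_two⟩
  haveI := Fintype.ofFinite B
  let f : Function.End B := fun c => ⟨s • c, hs c c.2⟩
  have := Equiv.Perm.card_fixedPoints_modEq (f := f) (p := 2) (n := 1) (by
    funext c; exact Subtype.ext (h2 c c.2))
  by_contra hn
  have h1 : f.fixedPoints = {⟨v, hv⟩} := by
    ext c
    refine ⟨fun hc => by_contra fun hc' => hn ⟨c, c.2, fun a => hc' (Subtype.ext a.symm), congrArg Subtype.val hc⟩, ?_⟩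
    rintro rfl
    exact Subtype.ext e
  rw [← Nat.card_eq_fintype_card, ← Nat.card_eq_fintype_card, h1, Nat.card_coe_set_eq, Nat.card_coe_set_eq,
    Set.ncard_singleton] at this
  obtain ⟨n, hn⟩ := he
  unfold Nat.ModEq at this
  omega

theorem c1e_cent' (h : C1 N Q p) (hxy : x ≠ y) (hU : Hy N (blk N x y) p U) {d : G} (hd : d ∈ CB U (blk N x y))
    (hf : ∀ c ∈ blk N x y, d • c = c) : ∀ m ∈ MM N (blk N x y), d * m = m * d := by
  have hx := h.left_mem_blk x y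
  have hy := right_mem_blk (N := N) x y
  obtain ⟨n, hn⟩ := h.scal hxy hU hd
  have a : ∀ w ∈ blk N x y, ∀ m ∈ Mw N (blk N x y) w, d * m * d⁻¹ = m ^ n := fun w hw m hm =>
    mul_inv_eq_one.1 (h.hy_inf hxy hU hw (mul_mem (by simpa only [hf w hw] using h.Mw_conj hd.2 hm)
      (inv_mem (pow_mem hm n))) (hn m (Mw_le hw hm)))
  obtain ⟨l, lo, hl⟩ := h.exists_gen hxy hy
  have l1 : l ≠ 1 := fun e => h.prime.one_lt.ne' (by rw [← lo, e, orderOf_one])
  have lm : l ∈ Mw N (blk N x y) y := hl ▸ mem_zpowers l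
  obtain ⟨u, hu, κ, hκ, e⟩ := h.hy_mul hxy hU hx (Mw_le hy lm)
  have κ1 : κ ≠ 1 := fun e' => l1 (h.hy_inf hxy hU hy lm (by rw [e, e', mul_one]; exact hu))
  have h1 : l ^ n * l⁻¹ = κ ^ n * κ⁻¹ := by
    rw [← a y hy l lm, ← a x hx κ hκ, e, ← mul_assoc, ← hd.1 u hu]
    calc u * d * κ * d⁻¹ * (u * κ)⁻¹ = u * (d * κ * d⁻¹ * κ⁻¹) * u⁻¹ := by group
      _ = _ := by
        rw [h.MM_comm hxy (hU.le hu) (Mw_le hx (mul_mem (by rw [a x hx κ hκ]; exact pow_mem hκ n) (inv_mem hκ))),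
          mul_inv_cancel_right]
  have h2 : κ ^ n * κ⁻¹ = 1 :=
    h.ti hxy (mul_mem (pow_mem hκ n) (inv_mem hκ)).1 (h1 ▸ (mul_mem (pow_mem lm n) (inv_mem lm)).1)
  refine c1e_cent h hxy hU hκ lm κ1 l1 ?_ ?_
  · rw [← mul_inv_eq_iff_eq_mul, a x hx κ hκ, ← mul_inv_eq_one, h2]
  · rw [← mul_inv_eq_iff_eq_mul, a y hy l lm, ← mul_inv_eq_one, h1, h2]

theorem C1.even_blk (h : C1 N Q p) (hxy : x ≠ y) (he : Even (blk N x y).ncard) {z : X}
    (hz : z ∈ blk N x y) (hzx : z ≠ x) (hzy : z ≠ y) : False := by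
  have hx := h.left_mem_blk x y
  obtain ⟨U, hU⟩ := h.exists_hy hxy
  have key : ∀ w ∈ blk N x y, w ≠ x → ∃ g ∈ CB U (blk N x y), g • x = w ∧
      ∀ m ∈ MM N (blk N x y), g * g * m = m * (g * g) := fun w hw hwx => by
    obtain ⟨g, hg, gx⟩ := h.cb_trans hxy hU hw
    obtain ⟨s, s1, s2⟩ := h.two hwx.symm hwx
    have hs := two_blk h.toStabTI hxy hx hw hwx.symm (s1.symm ▸ hw) (s2.symm ▸ hx)
    have ss : ∀ c ∈ blk N x y, s • s • c = c := fun c hc => by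
      rw [← mul_smul]
      exact h.sharp hxy hx hw hwx.symm (by rw [mul_smul, s1, s2]) (by rw [mul_smul, s2, s1]) c hc
    have ag := c1e_agree h hxy hs hg.2 (fun c hc e => by
      obtain ⟨c', hc', hne, e'⟩ := c1e_par he (fun c hc => (mem_St.1 hs c).2 hc) ss hc e
      exact hwx (s1.symm.trans (h.sharp hxy hc hc' hne e e' x hx)))
      (fun c hc e => hwx (gx.symm.trans (h.cb_reg hxy hU hg hc e x hx))) (s1.trans gx.symm)
    refine ⟨g, hg, gx, c1e_cent' h hxy hU (mul_mem hg hg) fun c hc => ?_⟩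
    rw [mul_smul, ← ag c hc, ← ag _ ((mem_St.1 hs c).2 hc), ss c hc]
  obtain ⟨g, hg, gx, g2⟩ := key y (right_mem_blk x y) hxy.symm
  obtain ⟨g', hg', gx', g2'⟩ := key z hz hzx
  exact hzy (gx'.symm.trans ((h.inv_eq hxy hU hg hg' (gx ▸ hxy.symm) (gx' ▸ hzx) g2 g2').symm.trans gx))

end CfsgLib.OTI
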