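import Cfsg.Agent.Lib.OTI.C1a

/-! Package C1F: blocks of size two give a Moufang set.  See `plans/OTI.md`. -/

set_option autoImplicit false

namespace CfsgLib.OTI

open Subgroup MulAction CfsgLib.Perm CfsgLib.HKS
open scoped commutatorElement

universe u

variable {G : Type u} [Group G] [Finite G] {X : Type u} [Finite X] [MulAction G X]
  {N Q : X → Subgroup G} {p : ℕ} {x y : X} {U : Subgroup G}

theorem C1.mf (h : C1 N Q p) (hxy : x ≠ y) (h2 : ∀ z ∈ blk N x y, z = x ∨ z = y) :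
    ∃ k l, MF Q x y k l p := by
  have hx := h.left_mem_blk x y
  have hy := right_mem_blk (N := N) x y
  have hb : ∀ {c d z : X}, c ≠ d → z ∈ blk N c d → z = c ∨ z = d := fun {c d z} hcd hz => by
    obtain ⟨g, e1, e2⟩ := h.two hcd hxy
    have := h.smul_mem_blk g hz
    rw [e1, e2] at this
    exact (h2 _ this).imp (fun e => smul_left_cancel g (e.trans e1.symm))
      fun e => smul_left_cancel g (e.trans e2.symm)
  obtain ⟨k, ok, hk⟩ := h.exists_gen hxy hx
  obtain ⟨l, ol, hl⟩ := h.exists_gen hxy hy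
  have km : k ∈ Mw N (blk N x y) x := hk ▸ mem_zpowers k
  have lm : l ∈ Mw N (blk N x y) y := hl ▸ mem_zpowers l
  have ne1 : ∀ {a : G}, orderOf a = p → a ≠ 1 := fun ha e => h.prime.one_lt.ne (by rw [← ha, e, orderOf_one])
  have cj : ∀ (g : G) (c d : X), c ∈ blk N x y → d ∈ blk N x y → g • x = c → g • y = d → ∀ {w a},
      a ∈ Mw N (blk N x y) w → g * a * g⁻¹ ∈ Mw N (blk N x y) (g • w) := fun g c d hc hd e1 e2 _ _ ha =>
    h.Mw_conj (two_blk h.toStabTI hxy hx hy hxy (e1 ▸ hc) (e2 ▸ hd)) ha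
  have fx : ∀ {w m}, w ∈ blk N x y → m ∈ Mw N (blk N x y) w → m ≠ 1 → ∀ z, m • z = z ↔ z = x ∨ z = y :=
    fun hw hm h1 z => ⟨fun e => h2 z (h.mem_blk hxy hw hm h1 e), fun e =>
      (mem_Mw.1 hm).2 z (e.elim (fun e => e ▸ hx) fun e => e ▸ hy)⟩
  refine ⟨k, l, h.faith, fun c a ha => h.fix (h.qle c ha), fun g c a ha => h.qconj g ha,
    fun c d e hd he => ?_, fun c d hd a ha e => h.qreg hd.symm ha (e.symm ▸ right_mem_blk c d), h.qnil, hxy, ?_,
    h.prime, h.ne2, ok, ol, h.MM_comm hxy (Mw_le hx km) (Mw_le hy lm),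
    fun g h1 h3 => h.ti hxy (hk.ge h1).1 (hl.ge h3).1, fun g e1 e2 a ha => ?_, fun g e1 e2 a ha => ?_,
    fun g e1 e2 a ha => ?_, fun g e1 e2 a ha => ?_, fx hx km (ne1 ok), fx hy lm (ne1 ol)⟩
  · obtain ⟨a, ha, hae⟩ := h.qtr hd.symm he.symm
    exact ⟨a, ha, (hb he.symm hae).resolve_left (h.norb_ne hd.symm ⟨a, h.qle c ha, rfl⟩).symm⟩
  · obtain ⟨z, hz⟩ := h.exists_not_mem_blk hxy
    exact ⟨z, fun e => hz (e ▸ hx), fun e => hz (e ▸ hy)⟩
  · exact hk.le (by simpa only [e1] using cj g x y hx hy e1 e2 (hk.ge ha))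
  · exact hl.le (by simpa only [e2] using cj g x y hx hy e1 e2 (hl.ge ha))
  · exact hl.le (by simpa only [e1] using cj g y x hy hx e1 e2 (hk.ge ha))
  · exact hk.le (by simpa only [e2] using cj g y x hy hx e1 e2 (hl.ge ha))

end CfsgLib.OTI
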