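import Mathlib
import Cfsg.Agent.Lib.Perm.GeomBlock
import Cfsg.Agent.Lib.HKS.Basic

/-! Vocabulary for O'Nan's theorem on TI normal subgroups of point stabilisers.  See `plans/OTI.md`. -/

set_option autoImplicit false

namespace CfsgLib.OTI

open Subgroup MulAction CfsgLib.Perm CfsgLib.HKS

universe u

variable {G : Type u} [Group G] {X : Type u} [MulAction G X]

/-- `K_{xy}` -/
abbrev Kp (N : X → Subgroup G) (x y : X) : Subgroup G := N x ⊓ stabilizer G y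

/-- normalised by the stabiliser of `x` -/
def Inv (x : X) (R : Subgroup G) : Prop := ∀ g : G, g • x = x → ∀ r ∈ R, g * r * g⁻¹ ∈ R

/-- a minimal non-semiregular TI family -/
structure Mn (N : X → Subgroup G) : Prop extends StabTI N where
  min : ∀ (x : X) (R : Subgroup G), R ≤ N x → Inv x R → R ≠ N x →
    ∀ r ∈ R, ∀ y, y ≠ x → r • y = y → r = 1

/-- `N x = Q x ⋊ K`, `|K| = p`, and `Q x` is regular on the blocks through `x` -/
structure C1 (N Q : X → Subgroup G) (p : ℕ) : Prop extends StabTI N where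
  prime : p.Prime
  ne2 : p ≠ 2
  card : ∀ {x y : X}, x ≠ y → Nat.card (Kp N x y) = p
  qconj : ∀ {x : X} {a : G} (g : G), a ∈ Q x → g * a * g⁻¹ ∈ Q (g • x)
  qle : ∀ x, Q x ≤ N x
  qreg : ∀ {x y : X} {a : G}, x ≠ y → a ∈ Q x → a • y ∈ blk N x y → a = 1
  qtr : ∀ {x y z : X}, x ≠ y → x ≠ z → ∃ a ∈ Q x, a • y ∈ blk N x z
  qnil : ∀ x, Group.IsNilpotent (Q x)

/-- the part of `N w` fixing the block `B` pointwise -/
abbrev Mw (N : X → Subgroup G) (B : Set X) (w : X) : Subgroup G := N w ⊓ fixingSubgroup G B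

/-- the group generated by the `Mw` -/
def MM (N : X → Subgroup G) (B : Set X) : Subgroup G := ⨆ w ∈ B, Mw N B w

/-- a hyperplane of `MM` with a fixed point outside `B` -/
structure Hy (N : X → Subgroup G) (B : Set X) (p : ℕ) (U : Subgroup G) : Prop where
  le : U ≤ MM N B
  idx : U.relIndex (MM N B) = p
  ex : ∃ z, z ∉ B ∧ ∀ u ∈ U, u • z = z

/-- `C(U) ∩ G_B` -/
abbrev CB (U : Subgroup G) (B : Set X) : Subgroup G := centralizer (U : Set G) ⊓ St G B

/-- `E = K × L` -/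
abbrev EE (k l : G) : Subgroup G := zpowers k ⊔ zpowers l

/-- a Moufang set with nilpotent root groups and two normal subgroups `⟨k⟩`, `⟨l⟩` of odd prime order of
the two-point stabiliser, fixed-point-free on the other points and exchanged by the swaps -/
structure MF (Q : X → Subgroup G) (x y : X) (k l : G) (p : ℕ) : Prop where
  faith : ∀ g : G, (∀ c : X, g • c = c) → g = 1
  fix : ∀ c, ∀ a ∈ Q c, a • c = c
  conj : ∀ (g : G) (c : X), ∀ a ∈ Q c, g * a * g⁻¹ ∈ Q (g • c)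
  trans : ∀ c d e : X, d ≠ c → e ≠ c → ∃ a ∈ Q c, a • d = e
  reg : ∀ c d : X, d ≠ c → ∀ a ∈ Q c, a • d = d → a = 1
  nil : ∀ c, Group.IsNilpotent (Q c)
  ne : x ≠ y
  three : ∃ z, z ≠ x ∧ z ≠ y
  prime : p.Prime
  ne2 : p ≠ 2
  ok : orderOf k = p
  ol : orderOf l = p
  comm : k * l = l * k
  disj : ∀ g ∈ zpowers k, g ∈ zpowers l → g = 1
  normk : ∀ g : G, g • x = x → g • y = y → ∀ a ∈ zpowers k, g * a * g⁻¹ ∈ zpowers k
  norml : ∀ g : G, g • x = x → g • y = y → ∀ a ∈ zpowers l, g * a * g⁻¹ ∈ zpowers l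
  swapk : ∀ g : G, g • x = y → g • y = x → ∀ a ∈ zpowers k, g * a * g⁻¹ ∈ zpowers l
  swapl : ∀ g : G, g • x = y → g • y = x → ∀ a ∈ zpowers l, g * a * g⁻¹ ∈ zpowers k
  fixk : ∀ z, k • z = z ↔ z = x ∨ z = y
  fixl : ∀ z, l • z = z ↔ z = x ∨ z = y

/-- `g` fixes a point of `Fix S` other than `x`, `y` -/
def Th (x y : X) (S : Set G) (g : G) : Prop := ∃ z ∈ Fx X S, z ≠ x ∧ z ≠ y ∧ g • z = z

/-- `S` fixes `x`, `y` and a third point, centralises `E`, and `E` is faithful on `Fix S` -/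
structure Good (x y : X) (k l : G) (S : Set G) : Prop where
  fx : x ∈ Fx X S
  fy : y ∈ Fx X S
  th : Th x y S 1
  cent : EE k l ≤ centralizer S
  faith : ∀ e ∈ EE k l, (∀ z ∈ Fx X S, e • z = z) → e = 1

/-- the alternative in the inductive step -/
structure Bad (x y : X) (k l : G) (S : Set G) (g e₀ e₂ t : G) : Prop where
  cent : ∀ e ∈ EE k l, g * e = e * g
  m0 : e₀ ∈ EE k l
  m2 : e₂ ∈ EE k l
  ne0 : e₀ ≠ 1
  nmem : e₂ ∉ zpowers e₀
  fix0 : ∀ z ∈ Fx X S, g • z = z → e₀ • z = z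
  th2 : Th x y S e₂
  only : ∀ e ∈ EE k l, e ≠ 1 → Th x y S e → e ∈ zpowers e₀ ∨ e ∈ zpowers e₂
  tm : t ∈ centralizer S
  tx : t • x = x
  ty : t • y = y
  inv : ∀ e ∈ EE k l, t * e * t⁻¹ = e⁻¹

theorem mem_Kp {N : X → Subgroup G} {x y : X} {g : G} : g ∈ Kp N x y ↔ g ∈ N x ∧ g • y = y := Iff.rfl

theorem mem_Mw {N : X → Subgroup G} {B : Set X} {w : X} {g : G} :
    g ∈ Mw N B w ↔ g ∈ N w ∧ ∀ c ∈ B, g • c = c := by
  simp [mem_fixingSubgroup_iff]

theorem Mw_le {N : X → Subgroup G} {B : Set X} {w : X} (hw : w ∈ B) : Mw N B w ≤ MM N B :=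
  le_iSup₂_of_le (f := fun w (_ : w ∈ B) => Mw N B w) w hw le_rfl

theorem MM_le_iff {N : X → Subgroup G} {B : Set X} {H : Subgroup G} :
    MM N B ≤ H ↔ ∀ w ∈ B, Mw N B w ≤ H := by
  simp only [MM, iSup_le_iff]

theorem MM_fix {N : X → Subgroup G} {B : Set X} {m : G} (hm : m ∈ MM N B) {c : X} (hc : c ∈ B) :
    m • c = c :=
  (MM_le_iff (H := stabilizer G c)).2 (fun _ _ _ hg => (mem_Mw.1 hg).2 c hc) hm

theorem mem_CB {U : Subgroup G} {B : Set X} {g : G} :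
    g ∈ CB U B ↔ (∀ u ∈ U, u * g = g * u) ∧ ∀ c, g • c ∈ B ↔ c ∈ B := Iff.rfl

theorem k_mem (k l : G) : k ∈ EE k l := mem_sup_left (mem_zpowers k)

theorem l_mem (k l : G) : l ∈ EE k l := mem_sup_right (mem_zpowers l)

end CfsgLib.OTI
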