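import Cfsg.Agent.Lib.OTI.Bas
import Cfsg.Agent.Lib.Frob.FPF

/-! Package EV0: `|K|` even excludes proper invariant subgroups.  See `plans/OTI.md`. -/

set_option autoImplicit false
set_option linter.unusedSectionVars false

namespace CfsgLib.OTI

open Subgroup MulAction CfsgLib.Perm CfsgLib.HKS
open scoped commutatorElement

universe u

variable {G : Type u} [Group G] [Finite G] {X : Type u} [Finite X] [MulAction G X]
  {N : X → Subgroup G} {x y : X}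

theorem ev0_norm {R : Subgroup G} (hI : Inv x R) {g : G} (hg : g • x = x) :
    g ∈ normalizer (R : Set G) := by
  refine mem_normalizer_iff.2 fun n => ⟨hI g hg n, fun hn => ?_⟩
  have := hI g⁻¹ (inv_smul_eq_iff.2 hg.symm) _ hn
  simpa [mul_assoc] using this

/-- an involution of `L` inverts every proper invariant subgroup -/
theorem ev0_inv (h : Mn N) (hxy : x ≠ y) {R : Subgroup G} (hR : R ≤ N x) (hI : Inv x R)
    (h2 : R ≠ N x) {t : G} (ht : t ∈ N y) (htx : t • x = x) (t1 : t ≠ 1) (tt : t * t = 1)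
    {r : G} (hr : r ∈ R) : t * r * t⁻¹ = r⁻¹ :=
  CfsgLib.Frob.conj_eq_inv_of_fpf (ev0_norm hI htx) (h.fpf hxy hR hI h2 ht htx t1)
    (by rw [tt]; exact one_mem _) hr

/-- `R₁ ∪ R₁ k` -/
def ev0_ext (R : Subgroup G) (k : G) (kk : k * k = 1) (hn : ∀ r ∈ R, k * r * k⁻¹ ∈ R) : Subgroup G where
  carrier := {g | g ∈ R ∨ g * k ∈ R}
  one_mem' := Or.inl R.one_mem
  mul_mem' := by
    have ki : k⁻¹ = k := inv_eq_of_mul_eq_one_right kk
    rintro a b (ha | ha) (hb | hb)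
    · exact Or.inl (mul_mem ha hb)
    · exact Or.inr (by rw [mul_assoc]; exact mul_mem ha hb)
    · refine Or.inr ?_
      have := mul_mem ha (hn b hb)
      rwa [ki, show a * k * (k * b * k) = a * (k * k) * b * k by group, kk, mul_one] at this
    · refine Or.inl ?_
      have := mul_mem ha (hn _ hb)
      rwa [show a * k * (k * (b * k) * k⁻¹) = a * (k * k) * b by group, kk, mul_one] at this
  inv_mem' := by
    have ki : k⁻¹ = k := inv_eq_of_mul_eq_one_right kk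
    rintro a (ha | ha)
    · exact Or.inl (inv_mem ha)
    · refine Or.inr ?_
      have := hn _ (inv_mem ha)
      rwa [show k * (a * k)⁻¹ * k⁻¹ = a⁻¹ * k⁻¹ by group, ki] at this

theorem Mn.ev0 (h : Mn N) (hxy : x ≠ y) {k : G} (hk : k ∈ N x) (hky : k • y = y) (k2 : orderOf k = 2)
    {R : Subgroup G} (hR : R ≤ N x) (hI : Inv x R) (h1 : R ≠ ⊥) (h2 : R ≠ N x) : False := by
  have k1 : k ≠ 1 := fun e => by rw [e, orderOf_one] at k2; omega
  have kk : k * k = 1 := by rw [← pow_two, ← k2, pow_orderOf_eq_one]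
  have hkx : k • x = x := h.fix hk
  set R₁ : Subgroup G := N x ⊓ centralizer (R : Set G) with hR₁
  have hle : R₁ ≤ N x := inf_le_left
  have hI₁ : Inv x R₁ := by
    intro g hg r hr
    refine ⟨h.conj' hg hr.1, mem_centralizer_iff.2 fun a ha => ?_⟩
    have e := mem_centralizer_iff.1 hr.2 _ (hI g⁻¹ (inv_smul_eq_iff.2 hg.symm) a ha)
    calc a * (g * r * g⁻¹) = g * (g⁻¹ * a * g⁻¹⁻¹ * r) * g⁻¹ := by group
      _ = g * (r * (g⁻¹ * a * g⁻¹⁻¹)) * g⁻¹ := by rw [e]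
      _ = g * r * g⁻¹ * a := by group
  obtain ⟨⟨r₀, hr₀⟩, r1⟩ := ne_bot_iff_exists_ne_one.1 h1
  have r1' : r₀ ≠ 1 := fun e => r1 (Subtype.ext e)
  have hne₁ : R₁ ≠ N x := fun e => r1' (h.eq_one_of_cent hxy hR hI h2 hr₀ fun n hn _ =>
    (mem_centralizer_iff.1 (e.ge hn).2 r₀ hr₀).symm)
  obtain ⟨s, sx, sy⟩ := h.two hxy hxy.symm
  set t := s * k * s⁻¹ with htdef
  have ht : t ∈ N y := sx ▸ h.conj s hk
  have htx : t • x = x := by
    rw [htdef, mul_smul, mul_smul, inv_smul_eq_iff.2 sy.symm, hky, sy]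
  have t1 : t ≠ 1 := fun e => k1 (by simpa [htdef] using e)
  have tt : t * t = 1 := by
    rw [htdef, show s * k * s⁻¹ * (s * k * s⁻¹) = s * (k * k) * s⁻¹ by group, kk]; group
  -- (a)
  have uniq : ∀ κ ∈ N x, κ • y = y → κ * κ = 1 → κ = 1 ∨ κ = k := by
    intro κ hκ hκy κκ
    by_cases κ1 : κ = 1
    · exact Or.inl κ1
    refine Or.inr ?_
    set t' := s * κ * s⁻¹ with ht'def
    have ht' : t' ∈ N y := sx ▸ h.conj s hκ
    have ht'x : t' • x = x := by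
      rw [ht'def, mul_smul, mul_smul, inv_smul_eq_iff.2 sy.symm, hκy, sy]
    have t'1 : t' ≠ 1 := fun e => κ1 (by simpa [ht'def] using e)
    have tt' : t' * t' = 1 := by
      rw [ht'def, show s * κ * s⁻¹ * (s * κ * s⁻¹) = s * (κ * κ) * s⁻¹ by group, κκ]; group
    have e : t⁻¹ * t' = 1 := by
      by_contra hne
      have hb := h.fpf hxy hR hI h2 (mul_mem (inv_mem ht) ht')
        (by rw [mul_smul, ht'x, inv_smul_eq_iff, htx]) hne
      refine r1' (CfsgLib.Frob.eq_one_of_fpf hb hr₀ ?_)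
      have a1 := ev0_inv h hxy hR hI h2 ht htx t1 tt hr₀
      have a2 := ev0_inv h hxy hR hI h2 ht' ht'x t'1 tt' hr₀
      calc r₀ * (t⁻¹ * t') = t⁻¹ * (t * r₀ * t⁻¹) * t' := by group
        _ = t⁻¹ * (t' * r₀ * t'⁻¹) * t' := by rw [a1, a2]
        _ = t⁻¹ * t' * r₀ := by group
    rw [inv_mul_eq_one, htdef, ht'def] at e
    simpa using e.symm
  -- (b)
  have dec : ∀ g ∈ N x, ∃ σ ∈ R₁, (σ⁻¹ * g) • y = y := by
    intro g hg
    have hgx := h.fix hg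
    have hρ : g * t * g⁻¹ * t⁻¹ ∈ R₁ := by
      refine ⟨?_, mem_centralizer_iff.2 fun a ha => ?_⟩
      · rw [show g * t * g⁻¹ * t⁻¹ = g * (t * g⁻¹ * t⁻¹) by group]
        exact mul_mem hg (h.conj' htx (inv_mem hg))
      · have a1 := ev0_inv h hxy hR hI h2 ht htx t1 tt (inv_mem ha)
        have a2 := ev0_inv h hxy hR hI h2 ht htx t1 tt
          (hI g⁻¹ (inv_smul_eq_iff.2 hgx.symm) _ (inv_mem ha))
        rw [inv_inv] at a1
        have a3 : g * t * g⁻¹ * a⁻¹ * (g * t * g⁻¹)⁻¹ = a := by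
          calc g * t * g⁻¹ * a⁻¹ * (g * t * g⁻¹)⁻¹ = g * (t * (g⁻¹ * a⁻¹ * g⁻¹⁻¹) * t⁻¹) * g⁻¹ := by group
            _ = a := by rw [a2]; group
        have a4 : t⁻¹ * a * t = a⁻¹ := by
          calc t⁻¹ * a * t = t⁻¹ * (t * a⁻¹ * t⁻¹) * t := by rw [a1]
            _ = a⁻¹ := by group
        calc a * (g * t * g⁻¹ * t⁻¹)
            = (g * t * g⁻¹ * a⁻¹ * (g * t * g⁻¹)⁻¹) * (g * t * g⁻¹ * t⁻¹) := by rw [a3]
          _ = g * t * g⁻¹ * (a⁻¹) * t⁻¹ := by group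
          _ = g * t * g⁻¹ * (t⁻¹ * a * t) * t⁻¹ := by rw [a4]
          _ = g * t * g⁻¹ * t⁻¹ * a := by group
    obtain ⟨σ, hσ, e⟩ := CfsgLib.Frob.exists_conj_eq_mul_of_fpf (ev0_norm hI₁ htx)
      (h.fpf hxy hle hI₁ hne₁ ht htx t1) hρ
    refine ⟨σ, hσ, h.fix_of_commute ht t1 ?_⟩
    calc σ⁻¹ * g * t = σ⁻¹ * (g * t * g⁻¹ * t⁻¹ * t) * g := by group
      _ = σ⁻¹ * (σ * t * σ⁻¹) * g := by rw [e]
      _ = t * (σ⁻¹ * g) := by group
  -- (c)
  set R₂ := ev0_ext R₁ k kk (hI₁ k hkx) with hR₂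
  have m₂ : ∀ g, g ∈ R₂ ↔ g ∈ R₁ ∨ g * k ∈ R₁ := fun _ => Iff.rfl
  have hk₂ : k ∈ R₂ := (m₂ k).2 (Or.inr (by rw [kk]; exact one_mem _))
  have hle₂ : R₂ ≤ N x := by
    intro g hg
    rcases (m₂ g).1 hg with e | e
    · exact hle e
    · simpa using mul_mem (hle e) (inv_mem hk)
  have hI₂ : Inv x R₂ := by
    intro g hg r hr
    have hc : g * k * g⁻¹ ∈ R₂ := by
      have hm := h.conj' hg hk
      obtain ⟨σ, hσ, e⟩ := dec _ hm
      set κ := σ⁻¹ * (g * k * g⁻¹) with hκ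
      have hκN : κ ∈ N x := mul_mem (inv_mem (hle hσ)) hm
      have e1 : g * k * g⁻¹ = σ * κ := by rw [hκ]; group
      have e2 : σ * κ * (σ * κ) = 1 := by
        rw [← e1, show g * k * g⁻¹ * (g * k * g⁻¹) = g * (k * k) * g⁻¹ by group, kk]; group
      have e3 : κ * κ ∈ R₁ := by
        have : κ * κ = (σ * (κ * σ * κ⁻¹))⁻¹ := by
          rw [eq_inv_iff_mul_eq_one, ← mul_left_inj (κ * κ), ← mul_right_inj (κ * κ)⁻¹]
          calc (κ * κ)⁻¹ * (κ * κ * (σ * (κ * σ * κ⁻¹)) * (κ * κ)) = σ * κ * (σ * κ) := by group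
            _ = _ := by rw [e2]; group
        rw [this]
        exact inv_mem (mul_mem hσ (hI₁ κ (h.fix hκN) σ hσ))
      have e4 := h.min x R₁ hle hI₁ hne₁ _ e3 y hxy.symm (by rw [mul_smul, e, e])
      rcases uniq κ hκN e e4 with e5 | e5
      · rw [e1, e5, mul_one]; exact (m₂ _).2 (Or.inl hσ)
      · rw [e1, e5]; exact mul_mem ((m₂ _).2 (Or.inl hσ)) hk₂
    rcases (m₂ r).1 hr with e | e
    · exact (m₂ _).2 (Or.inl (hI₁ g hg r e))
    · rw [show g * r * g⁻¹ = g * (r * k) * g⁻¹ * (g * k * g⁻¹)⁻¹ by group]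
      exact mul_mem ((m₂ _).2 (Or.inl (hI₁ g hg _ e))) (inv_mem hc)
  have heq : R₂ = N x := by
    by_contra hne
    exact k1 (h.min x R₂ hle₂ hI₂ hne k hk₂ y hxy.symm hky)
  have hK : ∀ κ ∈ N x, κ • y = y → κ = 1 ∨ κ = k := by
    intro κ hκ e
    rcases (m₂ κ).1 (heq.ge hκ) with e1 | e1
    · exact Or.inl (h.min x R₁ hle hI₁ hne₁ _ e1 y hxy.symm e)
    · have := h.min x R₁ hle hI₁ hne₁ _ e1 y hxy.symm (by rw [mul_smul, hky, e])
      exact Or.inr (mul_right_cancel (this.trans kk.symm))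
  have hf : R₁ ⊓ centralizer {k} = ⊥ := by
    refine CfsgLib.Frob.fpf_iff.2 fun r hr e => h.eq_one_of_cent hxy hle hI₁ hne₁ hr fun κ hκ e1 => ?_
    rcases hK κ hκ e1 with e2 | e2
    · rw [e2, one_mul, mul_one]
    · rw [e2, e]
  have hc : ∀ σ ∈ R₁, k * t * σ = σ * (k * t) := by
    intro σ hσ
    have a1 := ev0_inv h hxy hle hI₁ hne₁ ht htx t1 tt hσ
    have a2 := CfsgLib.Frob.conj_eq_inv_of_fpf (ev0_norm hI₁ hkx) hf
      (by rw [kk]; exact one_mem _) (inv_mem hσ)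
    calc k * t * σ = k * (t * σ * t⁻¹) * t := by group
      _ = k * σ⁻¹ * k⁻¹ * (k * t) := by rw [a1]; group
      _ = σ * (k * t) := by rw [a2, inv_inv]
  -- (d)
  have hkt : k * t = 1 := by
    refine h.faith _ fun z => ?_
    by_cases hz : x = z
    · rw [← hz, mul_smul, htx, hkx]
    obtain ⟨k', hk', k'1, k'z⟩ := h.exists_ne_one hz
    rcases (m₂ k').1 (heq.ge hk') with e1 | e1
    · exact absurd (h.min x R₁ hle hI₁ hne₁ _ e1 z (Ne.symm hz) k'z) k'1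
    obtain ⟨σ, hσ, e⟩ := CfsgLib.Frob.exists_conj_eq_mul_of_fpf (ev0_norm hI₁ hkx) hf e1
    rw [mul_assoc k', kk, mul_one] at e
    have e2 : k • σ⁻¹ • z = σ⁻¹ • z := by
      rw [eq_inv_smul_iff, ← mul_smul, ← mul_smul, e, k'z]
    have e3 : σ⁻¹ • z ∈ blk N x y := by
      intro n hn e4
      rcases hK n hn e4 with e5 | e5
      · rw [e5, one_smul]
      · rw [e5, e2]
    calc (k * t) • z = (k * t * σ) • σ⁻¹ • z := by rw [mul_smul _ σ, smul_inv_smul]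
      _ = σ • k • t • σ⁻¹ • z := by rw [hc σ hσ, mul_smul, mul_smul]
      _ = z := by rw [h.fix_blk' hxy ht htx e3, e2, smul_inv_smul]
  have : t = k⁻¹ := eq_inv_of_mul_eq_one_right hkt
  exact t1 (h.ti hxy (this ▸ inv_mem hk) ht)

end CfsgLib.OTI
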