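import Cfsg.Agent.Lib.OTI.C1a
import Cfsg.Agent.Lib.Frob.FPF
import Cfsg.Agent.Lib.Signal.Basic

/-! Package MFB: basic facts on `MF`.  See `plans/OTI.md`. -/

set_option autoImplicit false
set_option linter.unusedSectionVars false

namespace CfsgLib.OTI

open Subgroup MulAction CfsgLib.Perm CfsgLib.HKS
open scoped commutatorElement

universe u

variable {G : Type u} [Group G] [Finite G] {X : Type u} [Finite X] [MulAction G X]
  {Q : X → Subgroup G} {x y : X} {k l : G} {p : ℕ} {S : Set G}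

theorem mfb_comm (h : MF Q x y k l p) {a b : G} (ha : a ∈ zpowers k) (hb : b ∈ zpowers l) : Commute a b := by
  obtain ⟨i, rfl⟩ := ha
  obtain ⟨j, rfl⟩ := hb
  exact (show Commute k l from h.comm).zpow_zpow i j

theorem mfb_comm' {a b : G} (ha : a ∈ zpowers k) (hb : b ∈ zpowers k) : Commute a b := by
  obtain ⟨i, rfl⟩ := ha
  obtain ⟨j, rfl⟩ := hb
  exact (Commute.refl k).zpow_zpow i j

theorem mfb_uniq (h : MF Q x y k l p) {a b a' b' : G} (ha : a ∈ zpowers k) (hb : b ∈ zpowers l)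
    (ha' : a' ∈ zpowers k) (hb' : b' ∈ zpowers l) (e : a * b = a' * b') : a = a' ∧ b = b' := by
  have h1 := h.disj (a'⁻¹ * a) (mul_mem (inv_mem ha') ha) (by
    rw [show a'⁻¹ * a = a'⁻¹ * (a * b) * b⁻¹ by group, e, inv_mul_cancel_left]; exact mul_mem hb' (inv_mem hb))
  rw [inv_mul_eq_one] at h1
  subst h1
  exact ⟨rfl, mul_left_cancel e⟩

theorem mfb_three {Φ : Set X} {z : X} (hx : x ∈ Φ) (hy : y ∈ Φ) (hz : z ∈ Φ) (h1 : x ≠ y) (h2 : z ≠ x) (h3 : z ≠ y) :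
    3 ≤ Φ.ncard := by
  rw [← Set.ncard_eq_three.2 ⟨x, y, z, h1, h2.symm, h3.symm, rfl⟩]
  exact Set.ncard_le_ncard (by rintro _ (rfl | rfl | rfl) <;> assumption)

theorem MF.mem_EE (h : MF Q x y k l p) {e : G} :
    e ∈ EE k l ↔ ∃ a ∈ zpowers k, ∃ b ∈ zpowers l, e = a * b := by
  exact ⟨c1a_mem_sup fun a ha b hb => mfb_comm h ha hb, fun ⟨a, ha, b, hb, e⟩ =>
    e ▸ mul_mem (mem_sup_left ha) (mem_sup_right hb)⟩

theorem mfb_EE (h : MF Q x y k l p) {e e' : G} (he : e ∈ EE k l) (he' : e' ∈ EE k l) : e * e' = e' * e := by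
  obtain ⟨a, ha, b, hb, rfl⟩ := h.mem_EE.1 he
  obtain ⟨a', ha', b', hb', rfl⟩ := h.mem_EE.1 he'
  exact (((mfb_comm' ha ha').mul_right (mfb_comm h ha hb')).mul_left
    ((mfb_comm h ha' hb).symm.mul_right (mfb_comm' hb hb'))).eq

theorem MF.elem (h : MF Q x y k l p) : Cfsg.IsElementaryAbelian p (EE k l) := by
  refine ⟨⟨⟨fun a b => Subtype.ext (mfb_EE h a.2 b.2)⟩⟩, fun e he => ?_⟩
  obtain ⟨a, ha, b, hb, rfl⟩ := h.mem_EE.1 he
  rw [(mfb_comm h ha hb).mul_pow, orderOf_dvd_iff_pow_eq_one.1 (h.ok ▸ orderOf_dvd_of_mem_zpowers ha),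
    orderOf_dvd_iff_pow_eq_one.1 (h.ol ▸ orderOf_dvd_of_mem_zpowers hb), one_mul]

theorem MF.EE_comm (h : MF Q x y k l p) {e e' : G} (he : e ∈ EE k l) (he' : e' ∈ EE k l) :
    e * e' = e' * e := by
  exact mfb_EE h he he'

theorem MF.card_EE (h : MF Q x y k l p) : Nat.card (EE k l) = p ^ 2 := by
  have : Function.Bijective fun v : zpowers k × zpowers l =>
      (⟨v.1 * v.2, h.mem_EE.2 ⟨_, v.1.2, _, v.2.2, rfl⟩⟩ : EE k l) := by
    refine ⟨fun ⟨a, b⟩ ⟨a', b'⟩ e => ?_, fun ⟨u, hu⟩ => ?_⟩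
    · have := mfb_uniq h a.2 b.2 a'.2 b'.2 (Subtype.ext_iff.1 e)
      exact Prod.ext (Subtype.ext this.1) (Subtype.ext this.2)
    · obtain ⟨a, ha, b, hb, rfl⟩ := h.mem_EE.1 hu
      exact ⟨(⟨a, ha⟩, ⟨b, hb⟩), rfl⟩
  rw [← Nat.card_eq_of_bijective _ this, Nat.card_prod, Nat.card_zpowers, Nat.card_zpowers, h.ok, h.ol, pow_two]

theorem MF.EE_fix (h : MF Q x y k l p) {e : G} (he : e ∈ EE k l) : e • x = x ∧ e • y = y := by
  have : EE k l ≤ stabilizer G x ⊓ stabilizer G y :=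
    sup_le (zpowers_le.2 ⟨(h.fixk x).2 (Or.inl rfl), (h.fixk y).2 (Or.inr rfl)⟩)
      (zpowers_le.2 ⟨(h.fixl x).2 (Or.inl rfl), (h.fixl y).2 (Or.inr rfl)⟩)
  exact this he

/-- the stabiliser of `{x, y}` normalises `E` -/
theorem MF.EE_conj (h : MF Q x y k l p) {g e : G}
    (hg : (g • x = x ∧ g • y = y) ∨ (g • x = y ∧ g • y = x)) (he : e ∈ EE k l) : g * e * g⁻¹ ∈ EE k l := by
  obtain ⟨a, ha, b, hb, rfl⟩ := h.mem_EE.1 he
  rw [← conj_mul]
  rcases hg with ⟨h1, h2⟩ | ⟨h1, h2⟩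
  · exact mul_mem (mem_sup_left (h.normk g h1 h2 a ha)) (mem_sup_right (h.norml g h1 h2 b hb))
  · exact mul_mem (mem_sup_right (h.swapk g h1 h2 a ha)) (mem_sup_left (h.swapl g h1 h2 b hb))

theorem MF.EE_le (h : MF Q x y k l p) {e e' : G} (he : e ∈ EE k l) (he' : e' ∈ EE k l) (h1 : e ≠ 1)
    (h2 : e' ∉ zpowers e) {H : Subgroup G} (hH : e ∈ H) (hH' : e' ∈ H) : EE k l ≤ H := by
  have h3 : zpowers e < EE k l ⊓ H := lt_of_le_of_ne (zpowers_le.2 ⟨he, hH⟩) fun e => h2 (e ▸ ⟨he', hH'⟩)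
  have h4 : Nat.card (zpowers e) < Nat.card ↥(EE k l ⊓ H) :=
    lt_of_le_of_ne (card_le_of_le h3.le) fun e => h3.ne (eq_of_le_of_card_ge h3.le e.ge)
  haveI := Fact.mk h.prime
  rw [Nat.card_zpowers, orderOf_eq_prime (h.elem.2 e he) h1] at h4
  obtain ⟨i, hi, h5⟩ := (Nat.dvd_prime_pow h.prime).1
    (h.card_EE ▸ card_dvd_of_le (inf_le_left : EE k l ⊓ H ≤ EE k l))
  obtain rfl : i = 2 := by
    by_contra hne
    have : p ^ i ≤ p ^ 1 := Nat.pow_le_pow_right h.prime.pos (by omega)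
    rw [pow_one] at this; omega
  exact inf_eq_left.1 (eq_of_le_of_card_ge inf_le_left (by rw [h5, h.card_EE]))

/-- non-trivial powers of `k` and of `l` fix only `x` and `y` -/
theorem MF.fix_pow (h : MF Q x y k l p) {a : G} (ha : a ∈ zpowers k ∨ a ∈ zpowers l) (h1 : a ≠ 1) {z : X}
    (hz : a • z = z) : z = x ∨ z = y := by
  have key : ∀ {c : G}, orderOf c = p → a ∈ zpowers c → c • z = z := fun {c} hc ha =>
    (zpowers_le (H := stabilizer G z)).2 hz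
      (c1a_gen h.prime (by rw [Nat.card_zpowers, hc]) ha h1 ▸ mem_zpowers c)
  exact ha.elim (fun ha => (h.fixk z).1 (key h.ok ha)) fun ha => (h.fixl z).1 (key h.ol ha)

theorem MF.fpf (h : MF Q x y k l p) {a : G} (ha : a ∈ zpowers k ∨ a ∈ zpowers l) (h1 : a ≠ 1) :
    Q x ⊓ centralizer {a} = ⊥ := by
  refine eq_bot_iff.2 fun b hb => ?_
  have h2 : a ∈ EE k l := ha.elim mem_sup_left mem_sup_right
  refine h.reg x y h.ne.symm b hb.1 ((h.fix_pow ha h1 ?_).resolve_left fun e => ?_)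
  · rw [← mul_smul, ← mem_centralizer_singleton_iff.1 hb.2, mul_smul, (h.EE_fix h2).2]
  · exact h.ne (smul_left_cancel b ((h.fix x b hb.1).trans e.symm))

theorem MF.pi (h : MF Q x y k l p) : Cfsg.IsPiSubgroup {p}ᶜ (Q x) := by
  have h1 := Frob.coprime_card_of_fpf (K := Q x) (H := zpowers k)
    (mem_normalizer_of_conj fun g hg a ha => by simpa [(h.EE_fix (mem_sup_left hg)).1] using h.conj g x a ha)
    fun m hm h1 => h.fpf (Or.inl hm) h1
  rw [Nat.card_zpowers, h.ok] at h1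
  rintro q - hq rfl
  exact h.prime.one_lt.ne' (Nat.Coprime.eq_one_of_dvd h1 hq)

theorem MF.trans_Qc (h : MF Q x y k l p) {c d e : X} (hc : c ∈ Fx X S) (hd : d ∈ Fx X S) (he : e ∈ Fx X S)
    (h1 : d ≠ c) (h2 : e ≠ c) : ∃ a ∈ Qc Q S c, a • d = e := by
  obtain ⟨a, ha, ex⟩ := h.trans c d e h1 h2
  refine ⟨a, ⟨ha, fun s hs => ?_⟩, ex⟩
  have h3 : s * a * s⁻¹ ∈ Q c := by simpa [hc s hs] using h.conj s c a ha
  have h4 := h.reg c d h1 (a⁻¹ * (s * a * s⁻¹)) (mul_mem (inv_mem ha) h3) (by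
    rw [mul_smul, mul_smul, mul_smul, inv_smul_eq_iff.2 (hd s hs).symm, ex, he s hs, ← ex, inv_smul_smul])
  rw [inv_mul_eq_one, eq_mul_inv_iff_mul_eq] at h4
  exact h4.symm

theorem mfb_ins {g : G} {c : X} (hc : c ∈ Fx X S) (e : g • c = c) : c ∈ Fx X (insert g S) := by
  rintro _ (rfl | hs)
  exacts [e, hc _ hs]

theorem mfb_cent {g a : G} (ha : a ∈ centralizer (insert g S)) : a ∈ centralizer S ∧ a * g = g * a :=
  ⟨fun s hs => ha s (Or.inr hs), (ha g (Or.inl rfl)).symm⟩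

/-- for `g` fixing `x`, `y`: a third common fixed point is a non-trivial common fixed element of `Q x` -/
theorem MF.th_iff (h : MF Q x y k l p) (hx : x ∈ Fx X S) (hy : y ∈ Fx X S) {g : G} (gx : g • x = x)
    (gy : g • y = y) : Th x y S g ↔ Qc Q S x ⊓ centralizer {g} ≠ ⊥ := by
  constructor
  · rintro ⟨z, hz, h1, h2, e⟩ hb
    obtain ⟨a, ha, e1⟩ := h.trans_Qc (mfb_ins hx gx) (mfb_ins hy gy) (mfb_ins hz e) h.ne.symm h1
    have : a ∈ Qc Q S x ⊓ centralizer {g} := ⟨⟨ha.1, (mfb_cent ha.2).1⟩, mem_centralizer_singleton_iff.2 (mfb_cent ha.2).2⟩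
    rw [hb, mem_bot] at this
    exact h2 (by rw [← e1, this, one_smul])
  · intro hb
    obtain ⟨⟨a, ha⟩, h1⟩ := ne_bot_iff_exists_ne_one.1 hb
    refine ⟨a • y, Fx_pres ha.1.2 hy, fun e => h.ne (smul_left_cancel a ((h.fix x a ha.1.1).trans e.symm)),
      fun e => h1 (Subtype.ext (h.reg x y h.ne.symm a ha.1.1 e)), ?_⟩
    rw [← mul_smul, ← mem_centralizer_singleton_iff.1 ha.2, mul_smul, gy]

/-- the `μ`-map -/
theorem MF.mu (h : MF Q x y k l p) (hx : x ∈ Fx X S) (hy : y ∈ Fx X S) {g : G} (gx : g • x = x)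
    (gy : g • y = y) (ht : Th x y S g) :
    ∃ μ ∈ LL (Qc Q S) (Fx X S), μ ∈ centralizer S ∧ μ * g = g * μ ∧ μ • x = y ∧ μ • y = x := by
  obtain ⟨z, hz, h1, h2, e⟩ := ht
  obtain ⟨c, hc, e1⟩ := h.trans_Qc (mfb_ins hz e) (mfb_ins hx gx) (mfb_ins hy gy) h1.symm h2.symm
  obtain ⟨b, hb, e2⟩ := h.trans_Qc (mfb_ins hy gy) (Fx_pres hc.2 (mfb_ins hy gy)) (mfb_ins hx gx)
    (fun e => h.ne (smul_left_cancel c (e1.trans e.symm))) h.ne
  have := mfb_cent (mul_mem hb.2 hc.2)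
  exact ⟨b * c, mul_mem (Q_le_LL hy ⟨hb.1, (mfb_cent hb.2).1⟩) (Q_le_LL hz ⟨hc.1, (mfb_cent hc.2).1⟩), this.1, this.2,
    by rw [mul_smul, e1, h.fix y b hb.1], by rw [mul_smul, e2]⟩

theorem MF.good_empty (h : MF Q x y k l p) : Good x y k l (∅ : Set G) := by
  obtain ⟨z, h1, h2⟩ := h.three
  have m : ∀ c : X, c ∈ Fx X (∅ : Set G) := fun c s hs => hs.elim
  exact ⟨m x, m y, ⟨z, m z, h1, h2, one_smul _ _⟩, fun _ _ s hs => hs.elim, fun e _ he => h.faith e fun c => he c (m c)⟩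

theorem MF.two_lines (h : MF Q x y k l p) (hS : Good x y k l S) :
    ∃ e ∈ EE k l, ∃ e' ∈ EE k l, e ≠ 1 ∧ e' ∉ zpowers e ∧ Th x y S e ∧ Th x y S e' := by
  have th := fun {e} (he : e ∈ EE k l) => h.th_iff hS.fx hS.fy (h.EE_fix he).1 (h.EE_fix he).2
  have gen : ∀ H : Subgroup G, (∀ e ∈ EE k l, e ≠ 1 → Qc Q S x ⊓ centralizer {e} ≤ H) → Qc Q S x ≤ H := fun H =>
    Signal.le_of_cent1 h.prime h.elem (by
      rw [h.card_EE]; nlinarith [h.prime.one_lt]) (fun q hq hd => h.pi q hq (hd.trans (card_dvd_of_le inf_le_left)))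
      (mem_normalizer_of_conj fun g hg a ha => ⟨by simpa [(h.EE_fix hg).1] using h.conj g x a ha.1,
        (centralizer S).mul_mem ((centralizer S).mul_mem (hS.cent hg) ha.2) ((centralizer S).inv_mem (hS.cent hg))⟩)
  obtain ⟨e₁, he₁, h1, h2⟩ : ∃ e ∈ EE k l, e ≠ 1 ∧ Th x y S e := by
    by_contra hn
    refine (th (one_mem _)).1 hS.th (eq_bot_iff.2 (inf_le_left.trans (gen ⊥ fun e he h1 => le_of_eq ?_)))
    by_contra h2
    exact hn ⟨e, he, h1, (th he).2 h2⟩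
  by_contra hn
  have h3 := gen (centralizer {e₁}) fun e he h3 => by
    by_cases h4 : Qc Q S x ⊓ centralizer {e} = ⊥
    · exact h4 ▸ bot_le
    obtain ⟨n, rfl⟩ : e₁ ∈ zpowers e := by
      by_contra h5
      exact hn ⟨e, he, e₁, he₁, h3, h5, (th he).2 h4, h2⟩
    exact fun a ha => mem_centralizer_singleton_iff.2
      ((show Commute a e from mem_centralizer_singleton_iff.1 ha.2).zpow_right n).eq
  refine h1 (hS.faith e₁ he₁ fun z hz => ?_)
  by_cases e : z = x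
  · exact e ▸ (h.EE_fix he₁).1
  obtain ⟨a, ha, rfl⟩ := h.trans_Qc hS.fx hS.fy hz h.ne.symm e
  rw [← mul_smul, ← mem_centralizer_singleton_iff.1 (h3 ha), mul_smul, (h.EE_fix he₁).2]

theorem MF.EE_le_LL (h : MF Q x y k l p) (hS : Good x y k l S) : EE k l ≤ LL (Qc Q S) (Fx X S) := by
  have nm : ∀ g ∈ centralizer S, ∀ a ∈ LL (Qc Q S) (Fx X S), g * a * g⁻¹ ∈ LL (Qc Q S) (Fx X S) := fun g hg a ha =>
    (LL_le_iff (Q := Qc Q S) (M := (LL (Qc Q S) (Fx X S)).comap (MulAut.conj g).toMonoidHom)).2 (fun c hc b hb =>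
      Q_le_LL (Q := Qc Q S) (Fx_pres hg hc) ⟨h.conj g c b hb.1,
        (centralizer S).mul_mem ((centralizer S).mul_mem hg hb.2) ((centralizer S).inv_mem hg)⟩) ha
  have key : ∀ a ∈ zpowers k, ∀ b ∈ zpowers l, Th x y S (a * b) → a⁻¹ * b ∈ LL (Qc Q S) (Fx X S) := by
    intro a ha b hb ht
    have he := h.EE_fix (h.mem_EE.2 ⟨a, ha, b, hb, rfl⟩)
    obtain ⟨μ, h1, -, h2, h3, h4⟩ := h.mu hS.fx hS.fy he.1 he.2 ht
    have h5 := h.swapk μ h3 h4 a ha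
    have h6 := h.swapl μ h3 h4 b hb
    have h7 := (mfb_uniq h h6 h5 ha hb (by rw [(mfb_comm h h6 h5).eq, conj_mul, h2, mul_inv_cancel_right])).2
    have := mul_mem (nm _ (inv_mem (hS.cent (mem_sup_left ha))) μ h1) (inv_mem h1)
    rwa [show a⁻¹ * μ * a⁻¹⁻¹ * μ⁻¹ = a⁻¹ * (μ * a * μ⁻¹) by group, h7] at this
  obtain ⟨e, he, e', he', h1, h2, h3, h4⟩ := h.two_lines hS
  obtain ⟨a, ha, b, hb, rfl⟩ := h.mem_EE.1 he
  obtain ⟨a', ha', b', hb', rfl⟩ := h.mem_EE.1 he'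
  refine h.EE_le (h.mem_EE.2 ⟨_, inv_mem ha, b, hb, rfl⟩) (h.mem_EE.2 ⟨_, inv_mem ha', b', hb', rfl⟩) (fun e => ?_)
    (fun ⟨n, e⟩ => h2 ⟨n, ?_⟩) (key a ha b hb h3) (key a' ha' b' hb' h4)
  · obtain rfl := inv_mul_eq_one.1 e
    exact h1 (by rw [h.disj a ha hb, one_mul])
  · simp only at e ⊢
    rw [(mfb_comm h (inv_mem ha) hb).mul_zpow] at e
    obtain ⟨e1, e2⟩ := mfb_uniq h (zpow_mem (inv_mem ha) n) (zpow_mem hb n) (inv_mem ha') hb' e
    rw [inv_zpow, inv_inj] at e1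
    rw [(mfb_comm h ha hb).mul_zpow, e1, e2]

theorem MF.ms (h : MF Q x y k l p) (he : Even (Nat.card X)) : MS Q ⊤ Set.univ := by
  obtain ⟨z, h1, h2⟩ := h.three
  refine ⟨⟨fun _ _ _ _ => trivial, fun _ _ => le_top, fun c _ => h.fix c, fun g _ c _ => h.conj g c,
    fun c _ d _ e _ => h.trans c d e, fun c _ => h.nil c, fun c _ => ?_, mfb_three trivial trivial trivial h.ne h1 h2,
    by rwa [Set.ncard_univ]⟩, fun c _ d _ => h.reg c d⟩
  obtain ⟨d, hd⟩ : ∃ d, d ≠ c := by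
    by_cases e : x = c
    exacts [⟨y, e ▸ h.ne.symm⟩, ⟨x, e⟩]
  have h3 : (fun a : G => a • d) '' (Q c : Set G) = Set.univ \ {c} := by
    ext e
    refine ⟨?_, fun he => h.trans c d e hd he.2⟩
    rintro ⟨a, ha, rfl⟩
    exact ⟨trivial, fun e => hd (smul_left_cancel a (e.trans (h.fix c a ha).symm))⟩
  have h4 := Set.ncard_sdiff_singleton_add_one (Set.mem_univ c)
  rw [← h3, Set.InjOn.ncard_image fun a ha b hb e => (inv_mul_eq_one.1 (h.reg c d hd (b⁻¹ * a) (mul_mem (inv_mem hb) ha)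
    (by rw [mul_smul, inv_smul_eq_iff]; exact e))).symm, Set.ncard_univ] at h4
  rw [← h4, Nat.even_add_one, Nat.not_even_iff_odd] at he
  exact he

theorem MF.ms_good (h : MF Q x y k l p) (he : Even (Nat.card X)) (hS : Good x y k l S) :
    MS (Qc Q S) (centralizer S) (Fx X S) := by
  obtain ⟨z, hz, h1, h2, -⟩ := hS.th
  exact (h.ms he).fix_ms (mfb_three hS.fx hS.fy hz h.ne h1 h2)

end CfsgLib.OTI
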