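import Cfsg.Agent.Lib.OTI.MFb

/-! Package MFS: the inductive step.  See `plans/OTI.md`. -/

set_option autoImplicit false
set_option linter.unusedSectionVars false

namespace CfsgLib.OTI

open Subgroup MulAction CfsgLib.Perm CfsgLib.HKS
open scoped commutatorElement

universe u

variable {G : Type u} [Group G] [Finite G] {X : Type u} [Finite X] [MulAction G X]
  {Q : X → Subgroup G} {x y : X} {k l : G} {p : ℕ} {S : Set G}

theorem mfs_gen (h : MF Q x y k l p) {a b : G} (hb : b ∈ EE k l) (ha : a ∈ zpowers b) (h1 : a ≠ 1) :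
    b ∈ zpowers a := by
  have := Fact.mk h.prime
  have hb1 : b ≠ 1 := by
    rintro rfl
    exact h1 (by simpa using ha)
  exact c1a_gen h.prime (by rw [Nat.card_zpowers, orderOf_eq_prime (h.elem.2 b hb) hb1]) ha h1 ▸ mem_zpowers b

theorem mfs_sw (h : MF Q x y k l p) {μ a b : G} (h3 : μ • x = y) (h4 : μ • y = x) (ha : a ∈ zpowers k)
    (hb : b ∈ zpowers l) (h2 : μ * (a * b) = a * b * μ) : μ * a * μ⁻¹ = b ∧ μ * b * μ⁻¹ = a := by
  have h5 := h.swapk μ h3 h4 a ha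
  have h6 := h.swapl μ h3 h4 b hb
  exact (mfb_uniq h h6 h5 ha hb (by rw [(mfb_comm h h6 h5).eq, conj_mul, h2, mul_inv_cancel_right])).symm

theorem mfs_sc (h : MF Q x y k l p) {μ e e' : G} (h3 : μ • x = y) (h4 : μ • y = x) (he : e ∈ EE k l)
    (h1 : e ≠ 1) (he' : e' ∈ EE k l) (c : μ * e = e * μ) (c' : μ * e' = e' * μ) : e' ∈ zpowers e := by
  by_contra hn
  have h5 := mem_centralizer_singleton_iff.1 (h.EE_le he he' h1 hn (H := centralizer {μ})
    (mem_centralizer_singleton_iff.2 c.symm) (mem_centralizer_singleton_iff.2 c'.symm) (k_mem k l))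
  have h6 := h.swapk μ h3 h4 k (mem_zpowers k)
  rw [← h5, mul_inv_cancel_right] at h6
  have h7 := h.ok
  rw [h.disj k (mem_zpowers k) h6, orderOf_one] at h7
  exact h.prime.one_lt.ne h7

theorem mfs_sq (h : MF Q x y k l p) {e : G} (he : e ∈ EE k l) (h2 : e * e = 1) : e = 1 := by
  have h1 : orderOf e ∣ 2 := orderOf_dvd_of_pow_eq_one (by rw [pow_two, h2])
  have h3 : orderOf e ∣ p := orderOf_dvd_of_pow_eq_one (h.elem.2 e he)
  exact orderOf_eq_one_iff.1 (Nat.eq_one_of_dvd_coprimes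
    ((Nat.coprime_primes Nat.prime_two h.prime).2 h.ne2.symm) h1 h3)

theorem mfs_inv {t a b : G} (h : t * b * t⁻¹ = b⁻¹) (ha : a ∈ zpowers b) : t * a * t⁻¹ = a⁻¹ := by
  obtain ⟨i, rfl⟩ := ha
  simp only
  rw [← conj_zpow, h, inv_zpow]

theorem MF.step (h : MF Q x y k l p) (hS : Good x y k l S) {g : G} (gx : g • x = x) (gy : g • y = y)
    (ht : Th x y S g)
    (hcan : ∀ c ∈ centralizer S, (c • x = x ∧ c • y = y) ∨ (c • x = y ∧ c • y = x) →
      ∀ z ∈ Fx X S, g • z = z → g • c • z = c • z) :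
    Good x y k l (insert g S) ∨ ∃ e₀ e₂ t, Bad x y k l S g e₀ e₂ t := by
  obtain ⟨z₀, hz₀, n1, n2, gz⟩ := ht
  have third : ∀ a, a ∈ zpowers k ∨ a ∈ zpowers l → a • z₀ = z₀ → a = 1 := fun a ha e => by
    by_contra h1
    exact (h.fix_pow ha h1 e).elim n1 n2
  have hA : ∀ e ∈ EE k l, (g * e * g⁻¹ * e⁻¹) • z₀ = z₀ := fun e he => by
    have h1 := hcan _ (hS.cent (inv_mem he)) (Or.inl (h.EE_fix (inv_mem he))) z₀ hz₀ gz
    rw [mul_smul, mul_smul, inv_smul_eq_iff.2 h1.symm, mul_smul, smul_inv_smul, gz]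
  have cent : ∀ e ∈ EE k l, g * e = e * g := by
    have hle : EE k l ≤ centralizer {g} := by
      refine sup_le (fun a ha => ?_) fun a ha => ?_
      · have := third _ (Or.inl (mul_mem (h.normk g gx gy a ha) (inv_mem ha))) (hA a (mem_sup_left ha))
        rw [mul_inv_eq_one, mul_inv_eq_iff_eq_mul] at this
        exact mem_centralizer_singleton_iff.2 this.symm
      · have := third _ (Or.inr (mul_mem (h.norml g gx gy a ha) (inv_mem ha))) (hA a (mem_sup_right ha))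
        rw [mul_inv_eq_one, mul_inv_eq_iff_eq_mul] at this
        exact mem_centralizer_singleton_iff.2 this.symm
    exact fun e he => (mem_centralizer_singleton_iff.1 (hle he)).symm
  by_cases hf : ∀ e ∈ EE k l, (∀ z ∈ Fx X S, g • z = z → e • z = z) → e = 1
  · refine Or.inl ⟨mfb_ins hS.fx gx, mfb_ins hS.fy gy, ⟨z₀, mfb_ins hz₀ gz, n1, n2, one_smul _ _⟩, ?_, ?_⟩
    · rintro e he _ (rfl | hs)
      exacts [cent e he, hS.cent he _ hs]
    · exact fun e he hz => hf e he fun z h1 h2 => hz z (mfb_ins h1 h2)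
  right
  push Not at hf
  obtain ⟨e₀, he₀, fix0, ne0⟩ := hf
  obtain ⟨a, ha, b, hb, rfl⟩ := h.mem_EE.1 he₀
  have hab := mfb_comm h ha hb
  have f0 := fix0 z₀ hz₀ gz
  have a1 : a ≠ 1 := by
    rintro rfl
    rw [one_mul] at ne0 f0
    exact ne0 (third b (Or.inr hb) f0)
  have b1 : b ≠ 1 := by
    rintro rfl
    rw [mul_one] at ne0 f0
    exact ne0 (third a (Or.inl ha) f0)
  have he₂ : a⁻¹ * b ∈ EE k l := h.mem_EE.2 ⟨_, inv_mem ha, b, hb, rfl⟩
  have FE : ∀ e ∈ EE k l, e • z₀ = z₀ → e ∈ zpowers (a * b) := fun e he e1 => by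
    by_contra hn
    exact ((h.fixk z₀).1 (h.EE_le he₀ he ne0 hn (H := stabilizer G z₀) f0 e1 (k_mem k l))).elim n1 n2
  have nmem : a⁻¹ * b ∉ zpowers (a * b) := fun hm => by
    have h1 : (a * b * (a⁻¹ * b)) • z₀ = z₀ :=
      (zpowers_le (H := stabilizer G z₀)).2 f0 (mul_mem (mem_zpowers _) hm)
    rw [hab.eq, show b * a * (a⁻¹ * b) = b * b by group] at h1
    exact b1 (mfs_sq h (mem_sup_right hb) (third _ (Or.inr (mul_mem hb hb)) h1))
  have ne2 : a⁻¹ * b ≠ 1 := fun e => nmem (e ▸ one_mem _)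
  have only : ∀ e ∈ EE k l, e ≠ 1 → Th x y S e → e ∈ zpowers (a * b) ∨ e ∈ zpowers (a⁻¹ * b) := by
    intro e he e1 ht
    obtain ⟨μ, -, m1, m2, m3, m4⟩ := h.mu hS.fx hS.fy (h.EE_fix he).1 (h.EE_fix he).2 ht
    obtain ⟨c, hc, d, hd, rfl⟩ := h.mem_EE.1 he
    obtain ⟨s1, s2⟩ := mfs_sw h m3 m4 hc hd m2
    have c1 : c ≠ 1 := by
      rintro rfl
      exact e1 (by rw [← s1]; group)
    have d1 : d ∉ zpowers c := fun hm => by
      have := h.disj d ((zpowers_le (H := zpowers k)).2 hc hm) hd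
      exact c1 (by rw [← s2, this]; group)
    have hsq : EE k l ≤ centralizer {μ * μ} := h.EE_le (mem_sup_left hc) (mem_sup_right hd) c1 d1
      (mem_centralizer_singleton_iff.2 (by
        calc c * (μ * μ) = μ * (μ * c * μ⁻¹) * μ⁻¹ * (μ * μ) := by rw [s1, s2]
          _ = _ := by group))
      (mem_centralizer_singleton_iff.2 (by
        calc d * (μ * μ) = μ * (μ * d * μ⁻¹) * μ⁻¹ * (μ * μ) := by rw [s2, s1]
          _ = _ := by group))
    have hu : μ * (a * b) * μ⁻¹ ∈ EE k l := h.EE_conj (Or.inr ⟨m3, m4⟩) he₀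
    have hu0 : μ * (a * b) * μ⁻¹ ∈ zpowers (a * b) := FE _ hu (by
      have h1 := hcan _ (inv_mem m1) (Or.inr ⟨inv_smul_eq_iff.2 m4.symm, inv_smul_eq_iff.2 m3.symm⟩) z₀ hz₀ gz
      rw [mul_smul, mul_smul, fix0 _ (Fx_pres (inv_mem m1) hz₀) h1, smul_inv_smul])
    by_cases u1 : a * b * (μ * (a * b) * μ⁻¹) = 1
    · right
      have h5 := h.swapk μ m3 m4 a ha
      have h6 := h.swapl μ m3 m4 b hb
      obtain ⟨t1, t2⟩ := mfb_uniq h h6 h5 (inv_mem ha) (inv_mem hb) (by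
        rw [(mfb_comm h h6 h5).eq, conj_mul, eq_inv_of_mul_eq_one_right u1, hab.eq, mul_inv_rev])
      refine mfs_sc h m3 m4 he₂ ne2 he ?_ m2
      calc μ * (a⁻¹ * b) = (μ * a * μ⁻¹)⁻¹ * (μ * b * μ⁻¹) * μ := by group
        _ = _ := by rw [t1, t2, inv_inv, hab.inv_left.eq]
    · left
      refine (zpowers_le (H := zpowers (a * b))).2 (mul_mem (mem_zpowers _) hu0)
        (mfs_sc h m3 m4 (mul_mem he₀ hu) u1 he ?_ m2)
      have h7 := mem_centralizer_singleton_iff.1 (hsq he₀)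
      calc μ * (a * b * (μ * (a * b) * μ⁻¹)) = μ * (a * b) * μ⁻¹ * (μ * μ * (a * b)) * μ⁻¹ := by group
        _ = μ * (a * b) * μ⁻¹ * (a * b) * μ := by rw [← h7]; group
        _ = _ := by rw [h.EE_comm hu he₀]
  have th2 : Th x y S (a⁻¹ * b) := by
    have key : ∀ e, e ≠ 1 → Th x y S e → e ∈ zpowers (a⁻¹ * b) → Th x y S (a⁻¹ * b) := by
      rintro e e1 ⟨z, hz, k1, k2, k3⟩ hm
      exact ⟨z, hz, k1, k2, (zpowers_le (H := stabilizer G z)).2 k3 (mfs_gen h he₂ hm e1)⟩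
    obtain ⟨e, he, e', he', e1, e2, t1, t2⟩ := h.two_lines hS
    have e3 : e' ≠ 1 := fun e => e2 (e ▸ one_mem _)
    rcases only e he e1 t1 with k1 | k1
    · rcases only e' he' e3 t2 with k2 | k2
      · exact absurd ((zpowers_le (H := zpowers e)).2 (mfs_gen h he₀ k1 e1) k2) e2
      · exact key e' e3 t2 k2
    · exact key e e1 t1 k1
  obtain ⟨μ, -, m1, m2, m3, m4⟩ := h.mu hS.fx hS.fy (h.EE_fix he₀).1 (h.EE_fix he₀).2 ⟨z₀, hz₀, n1, n2, f0⟩
  obtain ⟨ν, -, r1, r2, r3, r4⟩ := h.mu hS.fx hS.fy (h.EE_fix he₂).1 (h.EE_fix he₂).2 th2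
  obtain ⟨s1, s2⟩ := mfs_sw h m3 m4 ha hb m2
  obtain ⟨s3, s4⟩ := mfs_sw h r3 r4 (inv_mem ha) hb r2
  refine ⟨a * b, a⁻¹ * b, μ * ν, cent, he₀, he₂, ne0, nmem, fix0, th2, only, mul_mem m1 r1,
    by rw [mul_smul, r3, m4], by rw [mul_smul, r4, m3], fun e he => ?_⟩
  obtain ⟨c, hc, d, hd, rfl⟩ := h.mem_EE.1 he
  have ia : μ * ν * a * (μ * ν)⁻¹ = a⁻¹ := by
    calc _ = μ * (ν * a⁻¹ * ν⁻¹)⁻¹ * μ⁻¹ := by group
      _ = (μ * b * μ⁻¹)⁻¹ := by rw [s3]; group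
      _ = _ := by rw [s2]
  have ib : μ * ν * b * (μ * ν)⁻¹ = b⁻¹ := by
    calc _ = μ * (ν * b * ν⁻¹) * μ⁻¹ := by group
      _ = (μ * a * μ⁻¹)⁻¹ := by rw [s4]; group
      _ = _ := by rw [s1]
  have hc' : c ∈ zpowers a := (zpowers_le (H := zpowers a)).2 (mfs_gen h (k_mem k l) ha a1) hc
  have hd' : d ∈ zpowers b := (zpowers_le (H := zpowers b)).2 (mfs_gen h (l_mem k l) hb b1) hd
  rw [← conj_mul, mfs_inv ia hc', mfs_inv ib hd', (mfb_comm h hc hd).eq, mul_inv_rev]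

end CfsgLib.OTI
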