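import Cfsg.Agent.Lib.OTI.Bas
import Cfsg.Agent.Lib.Frob.Thompson
import Cfsg.Agent.Lib.Signal.Basic

/-! Package RED: the solvable non-abelian case.  See `plans/OTI.md`. -/

set_option autoImplicit false
set_option linter.unusedSectionVars false

namespace CfsgLib.OTI

open Subgroup MulAction CfsgLib.Perm CfsgLib.HKS
open scoped commutatorElement

universe u

variable {G : Type u} [Group G] [Finite G] {X : Type u} [Finite X] [MulAction G X]
  {N : X → Subgroup G} {x y : X}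

theorem red_mem {p : ℕ} (hp : p.Prime) {H : Subgroup G} (hH : Nat.card H = p) {a b : G} (ha : a ∈ H)
    (h1 : a ≠ 1) (hb : b ∈ H) : b ∈ zpowers a := by
  have := Fact.mk hp
  obtain ⟨n, hn⟩ := mem_zpowers_of_prime_card hH (g := ⟨a, ha⟩) (g' := ⟨b, hb⟩)
    fun e => h1 (congrArg Subtype.val e)
  exact ⟨n, congrArg Subtype.val hn⟩

theorem red_conj (h : StabFam N) {a : G} (g : G) (ha : a ∈ ⁅N x, N x⁆) :
    g * a * g⁻¹ ∈ ⁅N (g • x), N (g • x)⁆ := by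
  have : ⁅N x, N x⁆ ≤ (⁅N (g • x), N (g • x)⁆ : Subgroup G).comap (MulAut.conj g).toMonoidHom :=
    commutator_le.2 fun a ha b hb => by
      rw [mem_comap, map_commutatorElement]
      exact commutator_mem_commutator (h.conj g ha) (h.conj g hb)
  exact this ha

theorem red_inv (h : StabFam N) (x : X) : Inv x ⁅N x, N x⁆ := fun g hg r hr => by
  simpa [hg] using red_conj h g hr

theorem red_le (N : X → Subgroup G) (x : X) : ⁅N x, N x⁆ ≤ N x :=
  commutator_le.2 fun _ ha _ hb => mul_mem (mul_mem (mul_mem ha hb) (inv_mem ha)) (inv_mem hb)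

theorem red_norm {R : Subgroup G} (hI : Inv x R) {g : G} (hg : g • x = x) : g ∈ normalizer (R : Set G) :=
  mem_normalizer_iff.2 fun r => ⟨hI g hg r, fun hr => by
    simpa [mul_assoc] using hI g⁻¹ (inv_smul_eq_iff.2 hg.symm) _ hr⟩

section
variable (h : Mn N) (h1 : ∀ w, ⁅N w, N w⁆ ≠ N w) (h0 : ∀ w, ⁅N w, N w⁆ ≠ (⊥ : Subgroup G)) {p : ℕ} (hp : p.Prime)
include h h1

theorem red_pow (hp : p.Prime) (hxy : x ≠ y) (hd : p ∣ Nat.card (Kp N x y)) {a : G} (ha : a ∈ N x) :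
    a ^ p ∈ ⁅N x, N x⁆ := by
  have key : ∀ a ∈ N x, ∀ b ∈ N x, ∀ n : ℕ, (a * b) ^ n * (a ^ n * b ^ n)⁻¹ ∈ ⁅N x, N x⁆ := by
    intro a ha b hb n
    induction n with
    | zero => simp
    | succ n ih =>
      have e : (a * b) ^ (n + 1) * (a ^ (n + 1) * b ^ (n + 1))⁻¹ =
          (a * b) ^ n * (a ^ n * b ^ n)⁻¹ * (a ^ n * ⁅b ^ n, a⁆ * (a ^ n)⁻¹) := by
        rw [pow_succ (a * b), commutatorElement_def]; group
      rw [e]
      exact mul_mem ih (red_inv h.toStabFam x _ (h.fix (pow_mem ha n)) _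
        (commutator_mem_commutator (pow_mem hb n) ha))
  let Ω : Subgroup G :=
    { carrier := {g | g ∈ N x ∧ g ^ p ∈ ⁅N x, N x⁆}
      one_mem' := ⟨one_mem _, by simp⟩
      mul_mem' := fun {a b} ha hb => ⟨mul_mem ha.1 hb.1, by
        simpa only [inv_mul_cancel_right] using mul_mem (key a ha.1 b hb.1 p) (mul_mem ha.2 hb.2)⟩
      inv_mem' := fun {a} ha => ⟨inv_mem ha.1, by rw [inv_pow]; exact inv_mem ha.2⟩ }
  have := Fact.mk hp
  obtain ⟨⟨k, hk⟩, ok⟩ := exists_prime_orderOf_dvd_card' p hd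
  rw [orderOf_mk] at ok
  have _ := h1
  have : Ω = N x := by
    by_contra hne
    have := h.min x Ω (fun g hg => hg.1) (fun g hg r hr => ⟨h.conj' hg hr.1, by
      rw [conj_pow]; exact red_inv h.toStabFam x g hg _ hr.2⟩) hne k
      ⟨hk.1, by rw [← ok, pow_orderOf_eq_one]; exact one_mem _⟩ y hxy.symm hk.2
    exact hp.one_lt.ne (by rw [← ok, this, orderOf_one])
  exact (this.ge ha).2

theorem red_elem (hp : p.Prime) (hxy : x ≠ y) (hd : p ∣ Nat.card (Kp N x y)) :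
    Cfsg.IsElementaryAbelian p (Kp N x y) := by
  have key := h.min x _ (red_le N x) (red_inv h.toStabFam x) (h1 x)
  refine ⟨⟨⟨fun a b => Subtype.ext (commutatorElement_eq_one_iff_mul_comm.1 ?_)⟩⟩, fun a ha => ?_⟩
  · refine key _ (commutator_mem_commutator a.2.1 b.2.1) y hxy.symm ?_
    exact (mul_mem (mul_mem (mul_mem a.2 b.2) (inv_mem a.2)) (inv_mem b.2)).2
  · exact key _ (red_pow h h1 hp hxy hd ha.1) y hxy.symm (pow_mem ha p).2

theorem red_pi (hxy : x ≠ y) (hd : p ∣ Nat.card (Kp N y x)) : Cfsg.IsPiSubgroup {p}ᶜ ⁅N x, N x⁆ := by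
  intro q hq hqd e
  obtain rfl : q = p := e
  have := Frob.coprime_card_of_fpf (K := ⁅N x, N x⁆) (H := Kp N y x)
    (fun l hl => red_norm (red_inv h.toStabFam x) hl.2)
    fun l hl l1 => h.fpf hxy (red_le N x) (red_inv h.toStabFam x) (h1 x) hl.1 hl.2 l1
  exact hq.one_lt.ne' (Nat.eq_one_of_dvd_coprimes this hd hqd)

include h0 hp

theorem red_card (hxy : x ≠ y) (hd : p ∣ Nat.card (Kp N x y)) : Nat.card (Kp N x y) = p := by
  refine (le_of_not_gt fun hlt => h0 y (eq_bot_iff.2 ?_)).antisymm (Nat.le_of_dvd Nat.card_pos hd)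
  exact Signal.le_of_cent1 hp (red_elem h h1 hp hxy hd) hlt (red_pi h h1 hxy.symm hd)
    (fun l hl => red_norm (red_inv h.toStabFam y) hl.2) fun l hl l1 =>
    (h.fpf hxy.symm (red_le N y) (red_inv h.toStabFam y) (h1 y) hl.1 hl.2 l1).le

omit h0 in
theorem red_fpf (hxy : x ≠ y) (hc : Nat.card (Kp N x y) = p) {k : G} (hk : k ∈ Kp N x y) (k1 : k ≠ 1) :
    ⁅N x, N x⁆ ⊓ centralizer {k} = ⊥ := by
  refine Frob.fpf_iff.2 fun r hr e =>
    h.eq_one_of_cent hxy (red_le N x) (red_inv h.toStabFam x) (h1 x) hr fun k' hk' e' => ?_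
  obtain ⟨n, rfl⟩ := red_mem hp hc hk k1 ⟨hk', e'⟩
  exact ((show Commute k r from e.symm).zpow_left n).eq

/-- the centraliser of `K` in `N x` is `K` -/
theorem red_cent (hxy : x ≠ y) (hc : Nat.card (Kp N x y) = p) {k : G} (hk : k ∈ Kp N x y) (k1 : k ≠ 1)
    {s : G} (hs : s ∈ N x) (hsk : s * k = k * s) : s • y = y := by
  by_contra hsy
  have hc' : Nat.card (Kp N y x) = p := (card_Kp h.toStabTI hxy.symm hxy).trans hc
  have hsK : ∀ κ ∈ Kp N x y, Commute s κ := fun κ hκ => by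
    obtain ⟨n, rfl⟩ := red_mem hp hc hk k1 hκ
    exact (show Commute s k from hsk).zpow_right n
  obtain ⟨l, hl, l1, hlx⟩ := h.exists_ne_one hxy.symm
  have hS := two_blk h.toStabTI hxy (h.left_mem_blk x y) (right_mem_blk x y) hxy (g := s)
    ((h.fix hs).symm ▸ h.left_mem_blk x y) fun n hn e => by
      rw [← mul_smul, ← (hsK n ⟨hn, e⟩).eq, mul_smul, e]
  set k₀ := s * l * s⁻¹ * l⁻¹ with hk₀
  have hk0 : k₀ ∈ Kp N x y := by
    refine mem_Kp.2 ⟨by simpa only [hk₀, mul_assoc] using mul_mem hs (h.conj' hlx (inv_mem hs)), ?_⟩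
    rw [hk₀, mul_smul, mul_smul, mul_smul, h.fix (inv_mem hl),
      h.fix_blk' hxy hl hlx ((mem_St.1 (inv_mem hS) y).2 (right_mem_blk x y)), smul_inv_smul]
  have k01 : k₀ ≠ 1 := fun e => hsy (h.fix_of_commute hl l1 (by
    rwa [hk₀, mul_inv_eq_one, mul_inv_eq_iff_eq_mul] at e))
  have hpow : ∀ i : ℕ, s ^ i * l * (s ^ i)⁻¹ = k₀ ^ i * l := fun i => by
    induction i with
    | zero => simp
    | succ i ih =>
      calc s ^ (i + 1) * l * (s ^ (i + 1))⁻¹ = s * (s ^ i * l * (s ^ i)⁻¹) * s⁻¹ := by group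
        _ = (s * k₀ ^ i) * (l * s⁻¹) := by rw [ih]; group
        _ = k₀ ^ i * (s * l * s⁻¹ * l⁻¹) * l := by rw [(hsK _ (pow_mem hk0 i)).eq]; group
        _ = _ := by rw [← hk₀, pow_succ]
  have eK := red_elem h h1 hp hxy hc.symm.dvd
  have eL := red_elem h h1 hp hxy.symm hc'.symm.dvd
  have hKL : ∀ κ ∈ Kp N x y, ∀ μ ∈ Kp N y x, Commute κ μ := fun κ hκ μ hμ =>
    h.commute hxy hκ.1 hκ.2 hμ.1 hμ.2
  have hmem : ∀ e ∈ Kp N x y ⊔ Kp N y x, ∃ κ ∈ Kp N x y, ∃ μ ∈ Kp N y x, κ * μ = e := fun e he =>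
    by
      have h2 : e ∈ ((Kp N x y ⊔ Kp N y x : Subgroup G) : Set G) := he
      rw [coe_mul_of_left_le_normalizer_right _ _ (mem_normalizer_of_conj fun κ hκ μ hμ => by
        rwa [(hKL κ hκ μ hμ).eq, mul_inv_cancel_right])] at h2
      exact h2
  refine h0 x (eq_bot_iff.2 (Signal.le_of_cent1 (A := Kp N x y ⊔ Kp N y x) hp ⟨⟨⟨fun a b => Subtype.ext ?_⟩⟩, fun a ha => ?_⟩
    ?_ (red_pi h h1 hxy hc'.symm.dvd) (sup_le (fun g hg => red_norm (red_inv h.toStabFam x) (h.fix hg.1))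
      fun g hg => red_norm (red_inv h.toStabFam x) hg.2) fun e he e1 => ?_))
  · obtain ⟨κ, hκ, μ, hμ, e⟩ := hmem a a.2
    obtain ⟨κ', hκ', μ', hμ', e'⟩ := hmem b b.2
    have c1 : Commute κ κ' := congrArg Subtype.val (eK.1.is_comm.comm ⟨κ, hκ⟩ ⟨κ', hκ'⟩)
    have c2 : Commute μ μ' := congrArg Subtype.val (eL.1.is_comm.comm ⟨μ, hμ⟩ ⟨μ', hμ'⟩)
    show (a : G) * b = b * a
    rw [← e, ← e']
    exact ((c1.mul_right (hKL _ hκ _ hμ')).mul_left ((hKL _ hκ' _ hμ).symm.mul_right c2)).eq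
  · obtain ⟨κ, hκ, μ, hμ, rfl⟩ := hmem a ha
    rw [(hKL _ hκ _ hμ).mul_pow, eK.2 κ hκ, eL.2 μ hμ, one_mul]
  · rw [← hc]
    refine lt_of_le_of_ne (card_le_of_le le_sup_left) fun e => l1 ?_
    have := (eq_of_le_of_card_ge le_sup_left e.ge).ge (mem_sup_right (show l ∈ Kp N y x from ⟨hl, hlx⟩))
    exact h.ti hxy this.1 hl
  · obtain ⟨κ, hκ, μ, hμ, rfl⟩ := hmem e he
    by_cases hμ1 : μ = 1
    · subst hμ1
      rw [mul_one] at e1 ⊢
      exact (red_fpf h h1 hp hxy hc hκ e1).le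
    obtain ⟨j, hj⟩ := red_mem hp hc' hμ hμ1 (show l ∈ Kp N y x from ⟨hl, hlx⟩)
    obtain ⟨i, hi⟩ := (mem_powers_iff_mem_zpowers (x := k₀)).2 (red_mem hp hc hk0 k01 (zpow_mem hκ j))
    have e2 : (κ * μ) ^ j = s ^ i * l * (s ^ i)⁻¹ := by
      rw [hpow, (hKL _ hκ _ hμ).mul_zpow, show μ ^ j = l from hj, show k₀ ^ i = κ ^ j from hi]
    have hsx := h.fix (pow_mem hs i)
    have := h.fpf (y := s ^ i • y) (fun e => hxy (smul_left_cancel (s ^ i) (hsx.trans e))) (red_le N x)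
      (red_inv h.toStabFam x) (h1 x) (h.conj (s ^ i) hl)
      (by rw [mul_smul, mul_smul, inv_smul_eq_iff.2 hsx.symm, hlx, hsx]) (by simpa using l1)
    refine le_trans (inf_le_inf_left _ fun r hr => ?_) this.le
    rw [mem_centralizer_singleton_iff] at hr ⊢
    rw [← e2]
    exact ((show Commute r _ from hr).zpow_right j).eq

theorem red_qtr (hxy : x ≠ y) (hc : Nat.card (Kp N x y) = p) {z : X} (hxz : x ≠ z) :
    ∃ a ∈ ⁅N x, N x⁆, a • y ∈ blk N x z := by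
  have hI := red_inv h.toStabFam x
  obtain ⟨k, hk, k1, hky⟩ := h.exists_ne_one hxy
  obtain ⟨s, hs, s1, hsz⟩ := h.exists_ne_one hxz
  have cj : ∀ κ ∈ Kp N x y, κ ≠ 1 → ∀ ρ ∈ ⁅N x, N x⁆, ∃ a ∈ ⁅N x, N x⁆, a * κ * a⁻¹ = ρ * κ :=
    fun κ hκ κ1 ρ hρ => Frob.exists_conj_eq_mul_of_fpf (red_norm hI (h.fix hκ.1))
      (red_fpf h h1 hp hxy hc hκ κ1) hρ
  obtain ⟨a, ha, e⟩ := cj k ⟨hk, hky⟩ k1 _ (commutator_mem_commutator hs hk)
  have hκ : a⁻¹ * s ∈ Kp N x y := by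
    have hm := mul_mem (inv_mem (red_le N x ha)) hs
    refine ⟨hm, red_cent h h1 h0 hp hxy hc ⟨hk, hky⟩ k1 hm ?_⟩
    calc a⁻¹ * s * k = a⁻¹ * (⁅s, k⁆ * k) * s := by rw [commutatorElement_def]; group
      _ = _ := by rw [← e]; group
  obtain ⟨b, hb, e'⟩ := cj _ hκ (fun e1 => s1 (h.min x _ (red_le N x) hI (h1 x) s
    (inv_mul_eq_one.1 e1 ▸ ha) z hxz.symm hsz)) a ha
  refine ⟨b, hb, fun n hn hz => ?_⟩
  obtain ⟨j, rfl⟩ := red_mem hp ((card_Kp h.toStabTI hxz hxy).trans hc) ⟨hs, hsz⟩ s1 ⟨hn, hz⟩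
  refine (zpow_mem (show s ∈ stabilizer G (b • y) from ?_) j :)
  rw [mul_inv_cancel_left] at e'
  rw [mem_stabilizer_iff, ← e', conj_smul_smul, show (a⁻¹ * s) • y = y from hκ.2]

end

theorem Mn.c1 (h : Mn N) (hxy : x ≠ y) (ho : Odd (Nat.card (Kp N x y))) (hs : Group.IsSolvable (N x))
    (hna : ¬ ∀ a ∈ N x, ∀ b ∈ N x, a * b = b * a) : ∃ p, C1 N (fun w => ⁅N w, N w⁆) p := by
  obtain ⟨k, hk, k1, hky⟩ := h.exists_ne_one hxy
  have tr : ∀ w, ∃ g : G, g • w = x := fun w => by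
    by_cases e : w = y
    · exact (h.two hxy.symm hxy).imp fun _ hg => e ▸ hg.1
    · exact (h.two e hxy).imp fun _ hg => hg.1
  have h1 : ∀ w, ⁅N w, N w⁆ ≠ N w := fun w e => by
    obtain ⟨g, rfl⟩ := tr w
    refine (BG.sol_der1_proper hs fun e => k1 (mem_bot.1 (e ▸ hk))).not_ge fun a ha => ?_
    have := h.conj g⁻¹ ha
    rw [inv_smul_smul, ← e] at this
    simpa [mul_assoc] using red_conj h.toStabFam g this
  have h0 : ∀ w, ⁅N w, N w⁆ ≠ (⊥ : Subgroup G) := fun w e => hna fun a ha b hb => by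
    obtain ⟨g, rfl⟩ := tr w
    have := red_conj h.toStabFam g⁻¹ (commutator_mem_commutator ha hb)
    rw [inv_smul_smul, e, mem_bot] at this
    exact commutatorElement_eq_one_iff_mul_comm.1 (by simpa [mul_assoc, inv_mul_eq_iff_eq_mul] using this)
  obtain ⟨p, hp, hd⟩ := Nat.exists_prime_and_dvd ((one_lt_card_iff_ne_bot (Kp N x y)).2
    fun e => k1 (mem_bot.1 (e ▸ (⟨hk, hky⟩ : k ∈ Kp N x y)))).ne'
  have hc : ∀ {a b : X}, a ≠ b → Nat.card (Kp N a b) = p := fun hab =>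
    (card_Kp h.toStabTI hab hxy).trans (red_card h h1 h0 hp hxy hd)
  refine ⟨p, h.toStabTI, hp, fun e => ?_, hc, fun g ha => red_conj h.toStabFam g ha, red_le N,
    fun hab ha hb => h.eq_one_of_blk hab (red_le N _) (red_inv h.toStabFam _) (h1 _) ha hb,
    fun hab hac => red_qtr h h1 h0 hp hab (hc hab) hac, fun w => ?_⟩
  · exact Nat.not_even_iff_odd.2 ho (even_iff_two_dvd.2 (e ▸ hd))
  · obtain ⟨v, hv⟩ : ∃ v, w ≠ v := by
      by_cases e : w = x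
      · exact ⟨y, e ▸ hxy⟩
      · exact ⟨x, e⟩
    obtain ⟨l, hl, l1, hlw⟩ := h.exists_ne_one hv.symm
    refine Frob.isNilpotent_of_fpf (red_norm (red_inv h.toStabFam w) hlw)
      (h.fpf hv (red_le N w) (red_inv h.toStabFam w) (h1 w) hl hlw l1) hp ?_
    rw [(red_elem h h1 hp hv.symm (hc hv.symm).symm.dvd).2 l ⟨hl, hlw⟩]
    exact one_mem _

end CfsgLib.OTI
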